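import Mathlib
import Cfsg.Agent.Lib.Lead.FpfAbelian

/-!
A nontrivial finite group with cyclic Sylow subgroups acting fixed-point-freely on a nontrivial
finite commutative group has a nontrivial central element.
-/

namespace Cfsg.Agent.Lib.Lead

theorem fpf_exists_central_of_zgroup {A W : Type*} [Group A] [CommGroup W]
    [MulDistribMulAction A W] [Finite A] [Finite W] [Nontrivial W] [Nontrivial A] [IsZGroup A]
    (h : FpfAct A W) : ∃ y : A, y ≠ 1 ∧ ∀ g : A, g * y = y * g := by
  have hlt := IsZGroup.commutator_lt A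
  have hcop := IsZGroup.coprime_commutator_index A
  have hidx : (commutator A).index ≠ 1 := fun h1 => hlt.ne (Subgroup.index_eq_one.mp h1)
  obtain ⟨r, hr, hrdvd⟩ := Nat.exists_prime_and_dvd hidx
  have : Fact r.Prime := ⟨hr⟩
  have hrA : r ∣ Nat.card A := hrdvd.trans (Subgroup.index_dvd_card _)
  obtain ⟨y, hy⟩ := exists_prime_orderOf_dvd_card' r hrA
  have hyr : y ^ r = 1 := by rw [← hy]; exact pow_orderOf_eq_one y
  have hy1 : y ≠ 1 := by
    rintro rfl
    rw [orderOf_one] at hy
    exact hr.ne_one hy.symm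
  have hQc : IsCyclic (commutator A) := IsZGroup.isCyclic_commutator A
  have hQcomm : ∀ c ∈ commutator A, ∀ d ∈ commutator A, c * d = d * c := by
    intro c hc d hd
    let _ := IsCyclic.commGroup (α := commutator A)
    exact congrArg Subtype.val (mul_comm (⟨c, hc⟩ : commutator A) ⟨d, hd⟩)
  have hQn : (commutator A).Normal := inferInstance
  have hcen := fpf_centralizes_of_normalizes h (commutator A) hQcomm y r hr hyr
    (fun c hc => hQn.conj_mem c hc y)
  refine ⟨y, hy1, fun g => ?_⟩
  have hu : g * y * g⁻¹ * y⁻¹ ∈ commutator A := by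
    rw [commutator_def]
    exact Subgroup.commutator_mem_commutator (Subgroup.mem_top g) (Subgroup.mem_top y)
  obtain ⟨u, hu_def⟩ : ∃ u, u = g * y * g⁻¹ * y⁻¹ := ⟨_, rfl⟩
  rw [← hu_def] at hu
  have hgy : g * y * g⁻¹ = u * y := by rw [hu_def]; group
  have huy : Commute u y := (hcen u hu).symm
  have hur : u ^ r = 1 := by
    have h1 : (u * y) ^ r = 1 := by
      rw [← hgy, conj_pow, hyr]; group
    rw [huy.mul_pow, hyr, mul_one] at h1
    exact h1
  have hu1 : u = 1 := by
    have h1 : orderOf u ∣ r := orderOf_dvd_of_pow_eq_one hur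
    have h2 : orderOf u ∣ Nat.card (commutator A) := by
      have h2' := orderOf_dvd_natCard (⟨u, hu⟩ : commutator A)
      rwa [Subgroup.orderOf_mk] at h2'
    have h3 : (Nat.card (commutator A)).Coprime r := Nat.Coprime.coprime_dvd_right hrdvd hcop
    have h4 : orderOf u ∣ 1 := by
      have h4' := Nat.dvd_gcd h2 h1
      rwa [h3.gcd_eq_one] at h4'
    exact orderOf_eq_one_iff.mp (Nat.dvd_one.mp h4)
  rw [hu1, one_mul] at hgy
  calc g * y = g * y * g⁻¹ * g := by group
    _ = y * g := by rw [hgy]

end Cfsg.Agent.Lib.Lead
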