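import Mathlib
import Cfsg.Agent.Lib.Helper22.Conj
import Cfsg.Agent.Lib.Helper5.MinNormal

set_option autoImplicit false

namespace Cfsg.Agent.Lib.Lead.SqFree

open Subgroup

/-- All conjugacy class sizes are squarefree. -/
def SF (G : Type*) [Group G] : Prop :=
  ∀ x : G, Squarefree (Subgroup.centralizer ({x} : Set G)).index

section basics

variable {G : Type*} [Group G]

theorem card_eq_relIndex_mul [Finite G] {A B : Subgroup G} (h : A ≤ B) :
    Nat.card B = A.relIndex B * Nat.card A := by
  have h1 := Subgroup.relIndex_mul_index h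
  have h2 := Subgroup.card_mul_index A
  have h3 := Subgroup.card_mul_index B
  have hB : B.index ≠ 0 := Subgroup.index_ne_zero_of_finite
  have : Nat.card B * B.index = (A.relIndex B * Nat.card A) * B.index := by
    rw [h3, ← h2, ← h1]; ring
  exact Nat.eq_of_mul_eq_mul_right (Nat.pos_of_ne_zero hB) this

theorem relIndex_normal_eq [Finite G] (N C : Subgroup G) [N.Normal] :
    C.relIndex N = C.relIndex (C ⊔ N) := by
  have e1 : Nat.card (C ⊔ N : Subgroup G) = N.relIndex (C ⊔ N) * Nat.card N :=
    card_eq_relIndex_mul le_sup_right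
  have e2 : Nat.card (C ⊔ N : Subgroup G) = C.relIndex (C ⊔ N) * Nat.card C :=
    card_eq_relIndex_mul le_sup_left
  have e3 : N.relIndex (C ⊔ N) = N.relIndex C := Subgroup.relIndex_sup_right C N
  have e4 : Nat.card C = (N ⊓ C).relIndex C * Nat.card (N ⊓ C : Subgroup G) :=
    card_eq_relIndex_mul inf_le_right
  have e5 : Nat.card N = (C ⊓ N).relIndex N * Nat.card (C ⊓ N : Subgroup G) :=
    card_eq_relIndex_mul inf_le_right
  rw [Subgroup.inf_relIndex_right] at e4 e5
  have e6 : Nat.card (N ⊓ C : Subgroup G) = Nat.card (C ⊓ N : Subgroup G) := by rw [inf_comm]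
  have hpos : 0 < N.relIndex C * Nat.card (C ⊓ N : Subgroup G) := by
    apply Nat.mul_pos
    · exact Nat.pos_of_ne_zero (by
        intro h0
        have : Nat.card C = 0 := by rw [e4, h0, zero_mul]
        exact (Nat.card_pos (α := C)).ne' this)
    · exact Nat.card_pos
  have key : C.relIndex N * (N.relIndex C * Nat.card (C ⊓ N : Subgroup G)) =
      C.relIndex (C ⊔ N) * (N.relIndex C * Nat.card (C ⊓ N : Subgroup G)) := by
    calc C.relIndex N * (N.relIndex C * Nat.card (C ⊓ N : Subgroup G))
        = N.relIndex C * (C.relIndex N * Nat.card (C ⊓ N : Subgroup G)) := by ring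
      _ = N.relIndex C * Nat.card N := by rw [← e5]
      _ = Nat.card (C ⊔ N : Subgroup G) := by rw [e1, e3]
      _ = C.relIndex (C ⊔ N) * Nat.card C := e2
      _ = C.relIndex (C ⊔ N) * (N.relIndex C * Nat.card (C ⊓ N : Subgroup G)) := by
          rw [e4, e6]
  exact Nat.eq_of_mul_eq_mul_right hpos key

/-- For `N` normal, `|N : N ∩ C|` divides `|G : C|`. -/
theorem relIndex_normal_dvd [Finite G] (N C : Subgroup G) [N.Normal] :
    C.relIndex N ∣ C.index := by
  rw [relIndex_normal_eq N C]
  exact Subgroup.relIndex_dvd_index_of_le le_sup_left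

theorem SF.relIndex [Finite G] (h : SF G) (N : Subgroup G) [N.Normal] (x : G) :
    Squarefree ((Subgroup.centralizer ({x} : Set G)).relIndex N) :=
  Squarefree.squarefree_of_dvd (relIndex_normal_dvd N _) (h x)

/-- Normal subgroups inherit squarefree class sizes. -/
theorem SF.normal [Finite G] (h : SF G) (N : Subgroup G) [N.Normal] : SF N := by
  intro x
  have e : Subgroup.centralizer ({x} : Set N) =
      (Subgroup.centralizer ({(x : G)} : Set G)).subgroupOf N := by
    ext y
    simp only [Subgroup.mem_centralizer_iff, Set.mem_singleton_iff, forall_eq,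
      Subgroup.mem_subgroupOf]
    constructor
    · intro hy; have := congrArg Subtype.val hy; simpa using this
    · intro hy; apply Subtype.ext; simpa using hy
  rw [e]
  exact h.relIndex N x

/-- Quotients inherit squarefree class sizes. -/
theorem SF.quotient [Finite G] (h : SF G) (N : Subgroup G) [N.Normal] : SF (G ⧸ N) := by
  intro y
  obtain ⟨x, rfl⟩ := QuotientGroup.mk_surjective y
  have hle : (Subgroup.centralizer ({x} : Set G)).map (QuotientGroup.mk' N) ≤
      Subgroup.centralizer ({(x : G ⧸ N)} : Set (G ⧸ N)) := by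
    rintro _ ⟨c, hc, rfl⟩
    rw [Subgroup.mem_centralizer_iff]
    intro z hz
    rw [Set.mem_singleton_iff] at hz
    subst hz
    have hc' := Subgroup.mem_centralizer_iff.mp hc x rfl
    simp only [QuotientGroup.mk'_apply]
    rw [← QuotientGroup.mk_mul, ← QuotientGroup.mk_mul, hc']
  have h1 := Subgroup.index_dvd_of_le hle
  have h2 := Subgroup.index_map_dvd (Subgroup.centralizer ({x} : Set G))
    (QuotientGroup.mk'_surjective N)
  exact Squarefree.squarefree_of_dvd (h1.trans h2) (h x)

end basics


section simple_case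

variable {G : Type*} [Group G] [Finite G]

/-- A subgroup of index dividing `p` in a finite `p`-group contains commutators and
`p`-th powers. -/
theorem comm_pow_mem_of_card_dvd {p : ℕ} [Fact p.Prime] {P R : Subgroup G} (hP : IsPGroup p P)
    (hRP : R ≤ P) (hcard : Nat.card P ∣ p * Nat.card R) :
    ∀ a ∈ P, ∀ b ∈ P, a * b * a⁻¹ * b⁻¹ ∈ R ∧ a ^ p ∈ R := by
  have hp := (Fact.out : p.Prime)
  have e := card_eq_relIndex_mul hRP
  have hdvd : R.relIndex P ∣ p := by
    rw [e] at hcard
    exact Nat.dvd_of_mul_dvd_mul_right Nat.card_pos hcard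
  rcases (Nat.dvd_prime hp).mp hdvd with h1 | h1
  · have hle : P ≤ R := Subgroup.relIndex_eq_one.mp h1
    intro a ha b hb
    exact ⟨hle (P.mul_mem (P.mul_mem (P.mul_mem ha hb) (P.inv_mem ha)) (P.inv_mem hb)),
      hle (P.pow_mem ha p)⟩
  · have hidx : (R.subgroupOf P).index = p := h1
    obtain ⟨n, hn⟩ := IsPGroup.iff_card.mp hP
    have hn0 : n ≠ 0 := by
      rintro rfl
      rw [pow_zero] at hn
      rw [hn, h1] at e
      have : p ∣ 1 := ⟨_, e⟩
      exact hp.one_lt.ne' (Nat.dvd_one.mp this)
    have hmin : (Nat.card P).minFac = p := by rw [hn]; exact hp.pow_minFac hn0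
    have hnorm : (R.subgroupOf P).Normal :=
      Subgroup.normal_of_index_eq_minFac_card (hidx.trans hmin.symm)
    have hcardQ : Nat.card (P ⧸ R.subgroupOf P) = p := by
      rw [← Subgroup.index_eq_card]; exact hidx
    have hcyc : IsCyclic (P ⧸ R.subgroupOf P) := isCyclic_of_prime_card hcardQ
    intro a ha b hb
    constructor
    · have h3 : (QuotientGroup.mk ((⟨a, ha⟩ : P) * ⟨b, hb⟩ * (⟨a, ha⟩ : P)⁻¹ * (⟨b, hb⟩ : P)⁻¹) :
          P ⧸ R.subgroupOf P) = 1 := by
        simp only [QuotientGroup.mk_mul, QuotientGroup.mk_inv]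
        have hc := (inferInstance : IsMulCommutative (P ⧸ R.subgroupOf P)).is_comm.comm
          (QuotientGroup.mk (⟨a, ha⟩ : P) : P ⧸ R.subgroupOf P) (QuotientGroup.mk (⟨b, hb⟩ : P))
        rw [hc]; group
      have h2 := (QuotientGroup.eq_one_iff _).mp h3
      exact Subgroup.mem_subgroupOf.mp h2
    · have h3 : (QuotientGroup.mk ((⟨a, ha⟩ : P) ^ p) : P ⧸ R.subgroupOf P) = 1 := by
        rw [QuotientGroup.mk_pow]
        conv_lhs => rw [← hcardQ]
        exact pow_card_eq_one'
      have h2 := (QuotientGroup.eq_one_iff _).mp h3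
      exact Subgroup.mem_subgroupOf.mp h2

theorem exists_sylow_large_centralizer (h : SF G) (p : ℕ) [Fact p.Prime] (x : G) :
    ∃ (P' : Sylow p G) (R : Subgroup G), R ≤ P' ∧ R ≤ Subgroup.centralizer ({x} : Set G) ∧
      Nat.card P' ∣ p * Nat.card R := by
  have hp := (Fact.out : p.Prime)
  obtain ⟨T⟩ := (inferInstance : Nonempty (Sylow p (Subgroup.centralizer ({x} : Set G))))
  have hRp : IsPGroup p ((T : Subgroup (Subgroup.centralizer ({x} : Set G))).map
      (Subgroup.centralizer ({x} : Set G)).subtype) := T.isPGroup'.map _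
  obtain ⟨P', hP'⟩ := hRp.exists_le_sylow
  refine ⟨P', _, hP', Subgroup.map_subtype_le _, ?_⟩
  have hcR : Nat.card ((T : Subgroup (Subgroup.centralizer ({x} : Set G))).map
      (Subgroup.centralizer ({x} : Set G)).subtype) =
      p ^ (Nat.card (Subgroup.centralizer ({x} : Set G))).factorization p := by
    rw [Subgroup.card_map_of_injective (Subgroup.subtype_injective _)]
    exact T.card_eq_multiplicity
  have hcP : Nat.card P' = p ^ (Nat.card G).factorization p := P'.card_eq_multiplicity
  have hG : Nat.card G = Nat.card (Subgroup.centralizer ({x} : Set G)) *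
      (Subgroup.centralizer ({x} : Set G)).index := (Subgroup.card_mul_index _).symm
  have hidx : (Subgroup.centralizer ({x} : Set G)).index ≠ 0 := Subgroup.index_ne_zero_of_finite
  have hf : (Nat.card G).factorization p =
      (Nat.card (Subgroup.centralizer ({x} : Set G))).factorization p +
      ((Subgroup.centralizer ({x} : Set G)).index).factorization p := by
    rw [hG, Nat.factorization_mul Nat.card_pos.ne' hidx]; rfl
  have hle : ((Subgroup.centralizer ({x} : Set G)).index).factorization p ≤ 1 :=
    Squarefree.natFactorization_le_one p (h x)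
  rw [hcP, hcR, hf, pow_add, mul_comm p]
  exact Nat.mul_dvd_mul_left _ (by
    calc p ^ ((Subgroup.centralizer ({x} : Set G)).index).factorization p ∣ p ^ 1 :=
          pow_dvd_pow p hle
      _ = p := pow_one p)

theorem center_eq_bot_of_simple [IsSimpleGroup G] (hna : ∃ a b : G, a * b ≠ b * a) :
    Subgroup.center G = ⊥ := by
  rcases (inferInstance : (Subgroup.center G).Normal).eq_bot_or_eq_top with h | h
  · exact h
  · exfalso
    obtain ⟨a, b, hab⟩ := hna
    have ha : a ∈ Subgroup.center G := by rw [h]; trivial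
    exact hab ((Subgroup.mem_center_iff.mp ha b).symm)

theorem conj_mem_smul_sylow {p : ℕ} (P : Sylow p G) (y a : G) (ha : a ∈ P) :
    y * a * y⁻¹ ∈ (y • P : Sylow p G) := by
  show y * a * y⁻¹ ∈ ((y • P : Sylow p G) : Subgroup G)
  rw [Sylow.coe_subgroup_smul]
  have := Subgroup.smul_mem_pointwise_smul a (MulAut.conj y) (P : Subgroup G) ha
  simpa [MulAut.smul_def, MulAut.conj_apply] using this

/-- In a nonabelian simple group with squarefree class sizes every Sylow subgroup is
elementary abelian. -/
theorem sylow_elem_abelian [IsSimpleGroup G] (hna : ∃ a b : G, a * b ≠ b * a) (h : SF G)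
    (p : ℕ) [Fact p.Prime] (P : Sylow p G) :
    (∀ a ∈ P, ∀ b ∈ P, a * b = b * a) ∧ ∀ a ∈ P, a ^ p = 1 := by
  have hZ := center_eq_bot_of_simple hna
  have key : ∀ c : G, (∀ (P' : Sylow p G) (R : Subgroup G), R ≤ P' →
      Nat.card P' ∣ p * Nat.card R → ∀ y : G, y • P = P' → y * c * y⁻¹ ∈ R) → c = 1 := by
    intro c hc
    have htop : Subgroup.centralizer ({c} : Set G) = ⊤ := by
      by_contra hne
      obtain ⟨g, hg⟩ := Cfsg.Agent.Lib.Helper22.exists_not_mem_conj _ hne
      obtain ⟨P', R, hRP, hRC, hcard⟩ := exists_sylow_large_centralizer h p g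
      obtain ⟨y, hy⟩ := MulAction.exists_smul_eq G P P'
      have h1 := hRC (hc P' R hRP hcard y hy)
      have h2 := Subgroup.mem_centralizer_iff.mp h1 g rfl
      apply hg y⁻¹
      rw [Subgroup.mem_centralizer_iff]
      intro z hz
      rw [Set.mem_singleton_iff] at hz
      subst hz
      rw [inv_inv]
      have : y * z * y⁻¹ * g = g * (y * z * y⁻¹) := h2.symm
      calc z * (y⁻¹ * g * y) = y⁻¹ * (y * z * y⁻¹ * g) * y := by group
        _ = y⁻¹ * (g * (y * z * y⁻¹)) * y := by rw [this]
        _ = y⁻¹ * g * y * z := by group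
    have hcen : c ∈ Subgroup.center G := by
      rw [Subgroup.mem_center_iff]
      intro g
      have : g ∈ Subgroup.centralizer ({c} : Set G) := by rw [htop]; trivial
      exact (Subgroup.mem_centralizer_iff.mp this c rfl).symm
    rw [hZ] at hcen
    exact Subgroup.mem_bot.mp hcen
  constructor
  · intro a ha b hb
    have : a * b * a⁻¹ * b⁻¹ = 1 := by
      apply key
      intro P' R hRP hcard y hy
      have ha' : y * a * y⁻¹ ∈ P' := by rw [← hy]; exact conj_mem_smul_sylow P y a ha
      have hb' : y * b * y⁻¹ ∈ P' := by rw [← hy]; exact conj_mem_smul_sylow P y b hb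
      have := (comm_pow_mem_of_card_dvd P'.isPGroup' hRP hcard _ ha' _ hb').1
      have e : y * (a * b * a⁻¹ * b⁻¹) * y⁻¹ =
          y * a * y⁻¹ * (y * b * y⁻¹) * (y * a * y⁻¹)⁻¹ * (y * b * y⁻¹)⁻¹ := by group
      rw [e]; exact this
    calc a * b = (a * b * a⁻¹ * b⁻¹) * b * a := by group
      _ = b * a := by rw [this, one_mul]
  · intro a ha
    apply key
    intro P' R hRP hcard y hy
    have ha' : y * a * y⁻¹ ∈ P' := by rw [← hy]; exact conj_mem_smul_sylow P y a ha
    have := (comm_pow_mem_of_card_dvd P'.isPGroup' hRP hcard _ ha' _ ha').2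
    have e : y * a ^ p * y⁻¹ = (y * a * y⁻¹) ^ p := by
      rw [conj_pow]
    rw [e]; exact this

theorem commutator_eq_top_of_simple [IsSimpleGroup G] (hna : ∃ a b : G, a * b ≠ b * a) :
    commutator G = ⊤ := by
  rcases (inferInstance : (commutator G).Normal).eq_bot_or_eq_top with h | h
  · exfalso
    obtain ⟨a, b, hab⟩ := hna
    have hm : a * b * a⁻¹ * b⁻¹ ∈ commutator G := by
      rw [commutator_eq_closure]
      exact Subgroup.subset_closure ⟨a, b, rfl⟩
    rw [h, Subgroup.mem_bot] at hm
    apply hab
    calc a * b = (a * b * a⁻¹ * b⁻¹) * b * a := by group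
      _ = b * a := by rw [hm, one_mul]
  · exact h

open scoped IsMulCommutative in
/-- With abelian Sylow `P` of exponent `p` in a perfect group, no nontrivial element of `P`
is central in the normalizer of `P`. -/
theorem no_central_in_normalizer (hperf : commutator G = ⊤)
    (p : ℕ) [Fact p.Prime] (P : Sylow p G)
    (hab : ∀ a ∈ P, ∀ b ∈ P, a * b = b * a) (hexp : ∀ a ∈ P, a ^ p = 1)
    (y : G) (hy : y ∈ P) (hyN : ∀ n ∈ Subgroup.normalizer ((P : Subgroup G) : Set G), n * y = y * n) : y = 1 := by
  have hp := (Fact.out : p.Prime)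
  have : IsMulCommutative P := ⟨⟨fun a b => Subtype.ext (hab a a.2 b b.2)⟩⟩
  have key : ∀ (k : ℕ) (g₀ : G), g₀⁻¹ * y ^ k * g₀ ∈ (P : Subgroup G) →
      g₀⁻¹ * y ^ k * g₀ = y ^ k := by
    intro k g₀ hk
    obtain ⟨n, hn, hn2⟩ := P.conj_eq_normalizer_conj_of_mem (y ^ k) g₀ (P.pow_mem hy k) hk
    rw [hn2]
    have hc : Commute n (y ^ k) := (show Commute n y from hyN n hn).pow_right k
    calc n⁻¹ * y ^ k * n = n⁻¹ * (y ^ k * n) := by group
      _ = n⁻¹ * (n * y ^ k) := by rw [hc.eq]
      _ = y ^ k := by group
  have h1 := MonoidHom.transfer_eq_pow (MonoidHom.id (P : Subgroup G)) y key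
  have h2 : y ∈ (MonoidHom.transfer (MonoidHom.id (P : Subgroup G))).ker := by
    have := Abelianization.commutator_subset_ker (MonoidHom.transfer (MonoidHom.id (P : Subgroup G)))
    apply this
    rw [hperf]; trivial
  rw [MonoidHom.mem_ker, h1] at h2
  have h3 : y ^ (P : Subgroup G).index = 1 := by
    have := congrArg Subtype.val h2
    simpa using this
  have h4 : y ^ p = 1 := hexp y hy
  have hcop : Nat.Coprime p (P : Subgroup G).index :=
    (Nat.Prime.coprime_iff_not_dvd hp).mpr P.not_dvd_index
  have h5 : orderOf y ∣ 1 := by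
    rw [← Nat.Coprime.gcd_eq_one hcop]
    exact Nat.dvd_gcd (orderOf_dvd_of_pow_eq_one h4) (orderOf_dvd_of_pow_eq_one h3)
  exact orderOf_eq_one_iff.mp (Nat.dvd_one.mp h5)

end simple_case


section counting

/-- Conjugation action on the elements of order `p`. -/
@[reducible] def conjOrd (G : Type*) [Group G] (p : ℕ) : MulAction G {y : G // orderOf y = p} where
  smul g y := ⟨g * y.1 * g⁻¹, by
    have := orderOf_injective (MulAut.conj g).toMonoidHom (MulAut.conj g).injective y.1
    simpa [MulAut.conj_apply] using this.trans y.2⟩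
  one_smul y := Subtype.ext (by show 1 * y.1 * 1⁻¹ = y.1; simp)
  mul_smul g h y := Subtype.ext (by
    show g * h * y.1 * (g * h)⁻¹ = g * (h * y.1 * h⁻¹) * g⁻¹
    group)

variable {G : Type*} [Group G] [Finite G]

theorem card_le_fixed_add_one (p : ℕ) [Fact p.Prime] (g : G) (R : Subgroup G)
    (hexp : ∀ r ∈ R, r ^ p = 1) (hRC : R ≤ Subgroup.centralizer ({g} : Set G))
    [Fintype (@MulAction.fixedBy G {y : G // orderOf y = p} _ (conjOrd G p) g)] :
    Nat.card R ≤ Fintype.card (@MulAction.fixedBy G {y : G // orderOf y = p} _ (conjOrd G p) g)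
      + 1 := by
  classical
  letI : MulAction G {y : G // orderOf y = p} := conjOrd G p
  haveI : Fintype R := Fintype.ofFinite R
  rw [Nat.card_eq_fintype_card, ← Fintype.card_congr (Equiv.optionSubtypeNe (1 : R)),
    Fintype.card_option]
  apply Nat.add_le_add_right
  refine Fintype.card_le_of_injective
    (fun r : {r : R // r ≠ 1} => (⟨⟨(r.1 : G), ?_⟩, ?_⟩ :
      MulAction.fixedBy {y : G // orderOf y = p} g)) ?_
  · exact orderOf_eq_prime (hexp _ r.1.2) (fun h1 => r.2 (Subtype.ext h1))
  · rw [MulAction.mem_fixedBy]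
    apply Subtype.ext
    show g * (r.1 : G) * g⁻¹ = (r.1 : G)
    have := Subgroup.mem_centralizer_iff.mp (hRC r.1.2) g rfl
    rw [this]; group
  · intro r1 r2 h12
    have := congrArg (fun z : MulAction.fixedBy {y : G // orderOf y = p} g => ((z : {y : G // orderOf y = p}) : G)) h12
    exact Subtype.ext (Subtype.ext this)

/-- A nonabelian simple group has a class size which is not squarefree. -/
theorem simple_contra [IsSimpleGroup G] (hna : ∃ a b : G, a * b ≠ b * a) (h : SF G) : False := by
  classical
  have hcard1 : Nat.card G ≠ 1 := by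
    intro h1
    obtain ⟨a, b, hab⟩ := hna
    haveI := (Nat.card_eq_one_iff_unique.mp h1).1
    exact hab (Subsingleton.elim _ _)
  have hp : ((Nat.card G).minFac).Prime := Nat.minFac_prime hcard1
  obtain ⟨p, hpdef⟩ : ∃ p, p = (Nat.card G).minFac := ⟨_, rfl⟩
  rw [← hpdef] at hp
  haveI : Fact p.Prime := ⟨hp⟩
  have hpdvd : p ∣ Nat.card G := hpdef ▸ Nat.minFac_dvd _
  obtain ⟨P⟩ := (inferInstance : Nonempty (Sylow p G))
  obtain ⟨hab, hexp⟩ := sylow_elem_abelian hna h p P
  have hperf := commutator_eq_top_of_simple hna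
  have hexp' : ∀ P' : Sylow p G, ∀ a ∈ P', a ^ p = 1 :=
    fun P' => (sylow_elem_abelian hna h p P').2
  letI : MulAction G {y : G // orderOf y = p} := conjOrd G p
  haveI : Fintype G := Fintype.ofFinite G
  haveI : Fintype {y : G // orderOf y = p} := Fintype.ofFinite _
  haveI : ∀ g : G, Fintype (MulAction.fixedBy {y : G // orderOf y = p} g) :=
    fun g => Fintype.ofFinite _
  haveI : Fintype (MulAction.orbitRel.Quotient G {y : G // orderOf y = p}) := Fintype.ofFinite _
  have hB := MulAction.sum_card_fixedBy_eq_card_orbits_mul_card_group G {y : G // orderOf y = p}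
  have hsmul : ∀ (g : G) (e : {y : G // orderOf y = p}), ((g • e : {y : G // orderOf y = p}) : G)
      = g * e.1 * g⁻¹ := fun g e => rfl
  -- (A)
  have hA : ∀ g : G, Nat.card P ≤
      p * (Fintype.card (MulAction.fixedBy {y : G // orderOf y = p} g) + 1) := by
    intro g
    obtain ⟨P', R, hRP, hRC, hcard⟩ := exists_sylow_large_centralizer h p g
    have hm' : Nat.card P' = Nat.card P :=
      P'.card_eq_multiplicity.trans P.card_eq_multiplicity.symm
    have h1 : Nat.card P ≤ p * Nat.card R := by
      rw [← hm']; exact Nat.le_of_dvd (Nat.mul_pos hp.pos Nat.card_pos) hcard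
    have h2 := card_le_fixed_add_one p g R (fun r hr => hexp' P' r (hRP hr)) hRC
    calc Nat.card P ≤ p * Nat.card R := h1
      _ ≤ _ := Nat.mul_le_mul_left p (by convert h2)
  -- (B)
  have hBd : Nat.card P ≤
      Fintype.card (MulAction.fixedBy {y : G // orderOf y = p} (1 : G)) + 1 := by
    have h2 := card_le_fixed_add_one p (1 : G) (P : Subgroup G) (fun r hr => hexp r hr) (by
      intro r _
      rw [Subgroup.mem_centralizer_iff]
      intro z hz
      rw [Set.mem_singleton_iff] at hz
      subst hz
      simp)
    convert h2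
  -- (C)
  have hN : ∀ e : {y : G // orderOf y = p}, (e : G) ∈ P →
      p + 1 ≤ (MulAction.orbit (Subgroup.normalizer ((P : Subgroup G) : Set G)) e).ncard := by
    intro e he
    rw [← MulAction.index_stabilizer]
    have hd1 : (MulAction.stabilizer (Subgroup.normalizer ((P : Subgroup G) : Set G)) e).index
        ≠ 1 := by
      intro h1
      rw [Subgroup.index_eq_one] at h1
      have hcen : ∀ n ∈ Subgroup.normalizer ((P : Subgroup G) : Set G), n * (e : G) = (e : G) * n := by
        intro n hn
        have hmem : (⟨n, hn⟩ : Subgroup.normalizer ((P : Subgroup G) : Set G)) ∈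
            MulAction.stabilizer (Subgroup.normalizer ((P : Subgroup G) : Set G)) e := by
          rw [h1]; trivial
        rw [MulAction.mem_stabilizer_iff] at hmem
        have h2 := congrArg Subtype.val hmem
        have h3 : n * (e : G) * n⁻¹ = (e : G) := h2
        calc n * (e : G) = n * (e : G) * n⁻¹ * n := by group
          _ = (e : G) * n := by rw [h3]
      have := no_central_in_normalizer hperf p P hab hexp e.1 he hcen
      have h4 := e.2
      rw [this, orderOf_one] at h4
      exact hp.one_lt.ne h4
    have hdvd : (MulAction.stabilizer (Subgroup.normalizer ((P : Subgroup G) : Set G)) e).index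
        ∣ (P : Subgroup G).index := by
      have hle : (P : Subgroup G).subgroupOf (Subgroup.normalizer ((P : Subgroup G) : Set G)) ≤
          MulAction.stabilizer (Subgroup.normalizer ((P : Subgroup G) : Set G)) e := by
        intro n hn
        rw [Subgroup.mem_subgroupOf] at hn
        rw [MulAction.mem_stabilizer_iff]
        apply Subtype.ext
        show (n : G) * (e : G) * (n : G)⁻¹ = (e : G)
        rw [hab _ hn _ he]; group
      exact (Subgroup.index_dvd_of_le hle).trans
        (Subgroup.relIndex_dvd_index_of_le Subgroup.le_normalizer)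
    have hnp : ¬ p ∣ (MulAction.stabilizer (Subgroup.normalizer ((P : Subgroup G) : Set G)) e).index :=
      fun hh => P.not_dvd_index (hh.trans hdvd)
    have hq := Nat.minFac_prime hd1
    have hqG : (MulAction.stabilizer (Subgroup.normalizer ((P : Subgroup G) : Set G)) e).index.minFac
        ∣ Nat.card G :=
      (Nat.minFac_dvd _).trans (hdvd.trans (Subgroup.index_dvd_card _))
    have hpq : p ≤ (MulAction.stabilizer (Subgroup.normalizer ((P : Subgroup G) : Set G)) e).index.minFac := by
      exact hpdef.le.trans (Nat.minFac_le_of_dvd hq.two_le hqG)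
    have hne : p ≠ (MulAction.stabilizer (Subgroup.normalizer ((P : Subgroup G) : Set G)) e).index.minFac := by
      intro heq
      have h6 := Nat.minFac_dvd
        (MulAction.stabilizer (Subgroup.normalizer ((P : Subgroup G) : Set G)) e).index
      rw [← heq] at h6
      exact hnp h6
    have hpos : 0 < (MulAction.stabilizer (Subgroup.normalizer ((P : Subgroup G) : Set G)) e).index :=
      Nat.pos_of_ne_zero Subgroup.index_ne_zero_of_finite
    have := Nat.minFac_le hpos
    omega
  have hC : Fintype.card (MulAction.orbitRel.Quotient G {y : G // orderOf y = p}) * (p + 1) + 1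
      ≤ Nat.card P := by
    haveI : Fintype (P : Subgroup G) := Fintype.ofFinite _
    have hS1 : (Finset.univ.filter (fun e : {y : G // orderOf y = p} => (e : G) ∈ P)).card + 1
        ≤ Nat.card P := by
      rw [Nat.card_eq_fintype_card, ← Fintype.card_congr (Equiv.optionSubtypeNe (1 : (P : Subgroup G))),
        Fintype.card_option]
      apply Nat.add_le_add_right
      rw [← Fintype.card_coe]
      refine Fintype.card_le_of_injective
        (fun e : {x // x ∈ Finset.univ.filter (fun e : {y : G // orderOf y = p} => (e : G) ∈ P)} =>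
          (⟨⟨(e.1 : G), (Finset.mem_filter.mp e.2).2⟩, ?_⟩ : {r : (P : Subgroup G) // r ≠ 1})) ?_
      · intro h1
        have h2 : ((e.1 : {y : G // orderOf y = p}) : G) = 1 := congrArg Subtype.val h1
        have h4 := e.1.2
        rw [h2, orderOf_one] at h4
        exact hp.one_lt.ne h4
      · intro e1 e2 h12
        have h3 : ((e1.1 : {y : G // orderOf y = p}) : G) = ((e2.1 : {y : G // orderOf y = p}) : G) :=
          congrArg (fun z : {r : (P : Subgroup G) // r ≠ 1} => ((z.1 : (P : Subgroup G)) : G)) h12
        exact Subtype.ext (Subtype.ext h3)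
    have hS2 : Fintype.card (MulAction.orbitRel.Quotient G {y : G // orderOf y = p}) * (p + 1) ≤
        (Finset.univ.filter (fun e : {y : G // orderOf y = p} => (e : G) ∈ P)).card := by
      rw [Finset.card_eq_sum_card_fiberwise (f := fun e => (Quotient.mk'' e :
        MulAction.orbitRel.Quotient G {y : G // orderOf y = p})) (t := Finset.univ)
        (fun _ _ => Finset.mem_univ _)]
      rw [← Finset.card_univ, ← smul_eq_mul, ← Finset.sum_const]
      apply Finset.sum_le_sum
      intro ω _
      obtain ⟨e, rfl⟩ := Quotient.exists_rep ω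
      -- conjugate e into P
      have hpg : IsPGroup p (Subgroup.zpowers (e : G)) := by
        apply IsPGroup.of_card (n := 1)
        rw [Nat.card_zpowers, e.2, pow_one]
      obtain ⟨P', hP'⟩ := hpg.exists_le_sylow
      obtain ⟨y, hy⟩ := MulAction.exists_smul_eq G P' P
      have he0 : ((y • e : {y : G // orderOf y = p}) : G) ∈ P := by
        rw [hsmul, ← hy]
        exact conj_mem_smul_sylow P' y _ (hP' (Subgroup.mem_zpowers _))
      have hsub : MulAction.orbit (Subgroup.normalizer ((P : Subgroup G) : Set G)) (y • e) ⊆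
          ((Finset.univ.filter (fun e : {y : G // orderOf y = p} => (e : G) ∈ P)).filter
            (fun a => (Quotient.mk'' a : MulAction.orbitRel.Quotient G {y : G // orderOf y = p})
              = Quotient.mk'' e) : Set {y : G // orderOf y = p}) := by
        rintro _ ⟨n, rfl⟩
        rw [Finset.mem_coe, Finset.mem_filter, Finset.mem_filter]
        refine ⟨⟨Finset.mem_univ _, ?_⟩, ?_⟩
        · have e1 : ((n • (y • e) : {y : G // orderOf y = p}) : G) =
              (n : G) * ((y • e : {y : G // orderOf y = p}) : G) * (n : G)⁻¹ := rfl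
          show ((n • (y • e) : {y : G // orderOf y = p}) : G) ∈ P
          rw [e1]
          exact (Subgroup.mem_normalizer_iff.mp n.2 _).mp he0
        · apply Quotient.sound'
          show (n • (y • e)) ∈ MulAction.orbit G e
          exact ⟨(n : G) * y, by show ((n : G) * y) • e = n • (y • e); rw [mul_smul]; rfl⟩
      have h5 := Set.ncard_le_ncard hsub (Finset.finite_toSet _)
      rw [Set.ncard_coe_finset] at h5
      exact (hN (y • e) he0).trans h5
    omega
  -- at least one orbit
  have hc1 : 1 ≤ Fintype.card (MulAction.orbitRel.Quotient G {y : G // orderOf y = p}) := by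
    obtain ⟨x, hx⟩ := exists_prime_orderOf_dvd_card' p hpdvd
    exact Fintype.card_pos_iff.mpr ⟨Quotient.mk'' ⟨x, hx⟩⟩
  -- m ≥ p^2
  have hm2 : p * p ≤ Nat.card P := by
    have hcP : Nat.card P = p ^ (Nat.card G).factorization p := P.card_eq_multiplicity
    have hgt : p < Nat.card P := by nlinarith
    rw [hcP] at hgt ⊢
    have h2 : 2 ≤ (Nat.card G).factorization p := by
      by_contra hlt
      push Not at hlt
      have : p ^ (Nat.card G).factorization p ≤ p ^ 1 :=
        Nat.pow_le_pow_right hp.pos (by omega)
      rw [pow_one] at this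
      omega
    calc p * p = p ^ 2 := by ring
      _ ≤ _ := Nat.pow_le_pow_right hp.pos h2
  -- the sum bound
  have hsum : p * Nat.card P + (Finset.univ.erase (1 : G)).card * Nat.card P ≤
      p * (Fintype.card (MulAction.orbitRel.Quotient G {y : G // orderOf y = p}) * Fintype.card G
        + Fintype.card G) := by
    rw [← hB]
    have e1 : p * (∑ g : G, Fintype.card (MulAction.fixedBy {y : G // orderOf y = p} g)
        + Fintype.card G) =
        ∑ g : G, p * (Fintype.card (MulAction.fixedBy {y : G // orderOf y = p} g) + 1) := by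
      rw [← Finset.mul_sum, Finset.sum_add_distrib]
      simp
    rw [e1, ← Finset.add_sum_erase Finset.univ _ (Finset.mem_univ (1 : G))]
    apply Nat.add_le_add
    · exact Nat.mul_le_mul_left p hBd
    · rw [← smul_eq_mul, ← Finset.sum_const]
      exact Finset.sum_le_sum (fun g _ => hA g)
  have hk : (Finset.univ.erase (1 : G)).card + 1 = Fintype.card G := by
    rw [Finset.card_erase_of_mem (Finset.mem_univ _), Finset.card_univ]
    have : 0 < Fintype.card G := Fintype.card_pos
    omega
  have hp2 : 2 ≤ p := hp.two_le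
  generalize Fintype.card (MulAction.orbitRel.Quotient G {y : G // orderOf y = p}) = c at *
  generalize (Finset.univ.erase (1 : G)).card = k at *
  generalize Nat.card P = m at *
  rw [← hk] at hsum
  -- arithmetic
  have h1 : (p + k) * (p * p) ≤ p * (c * (k + 1) + (k + 1)) := by
    calc (p + k) * (p * p) ≤ (p + k) * m := Nat.mul_le_mul_left _ hm2
      _ = p * m + k * m := by ring
      _ ≤ _ := hsum
  have h2 : (p + k) * (c * (p + 1) + 1) ≤ p * (c * (k + 1) + (k + 1)) := by
    calc (p + k) * (c * (p + 1) + 1) ≤ (p + k) * m := Nat.mul_le_mul_left _ hC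
      _ = p * m + k * m := by ring
      _ ≤ _ := hsum
  have h1' : p * p + k * p ≤ c * k + c + k + 1 := by
    have : p * (p * p + k * p) ≤ p * (c * k + c + k + 1) := by
      calc p * (p * p + k * p) = (p + k) * (p * p) := by ring
        _ ≤ p * (c * (k + 1) + (k + 1)) := h1
        _ = p * (c * k + c + k + 1) := by ring
    exact Nat.le_of_mul_le_mul_left this hp.pos
  have h4 : 4 ≤ p * p := by nlinarith
  have h5 : 4 * c ≤ c * (p * p) := by nlinarith
  nlinarith [h1', h2, h4, h5]

end counting

/-- Squarefree class sizes force solvability (no Feit-Thompson needed). -/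
theorem SF.isSolvable : ∀ (n : ℕ) (G : Type*) [Group G] [Finite G], Nat.card G = n → SF G →
    Group.IsSolvable G := by
  intro n
  induction n using Nat.strong_induction_on with
  | _ n ih =>
    intro G _ _ hn h
    by_cases hex : ∃ N : Subgroup G, N.Normal ∧ N ≠ ⊥ ∧ N ≠ ⊤
    · obtain ⟨N, hN, hbot, htop⟩ := hex
      haveI := hN
      have hcN : Nat.card N < n := by
        rw [← hn]
        have h1 := Subgroup.card_mul_index N
        have h2 : N.index ≠ 1 := fun h => htop (Subgroup.index_eq_one.mp h)
        have h3 : N.index ≠ 0 := Subgroup.index_ne_zero_of_finite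
        have h4 : 0 < Nat.card N := Nat.card_pos
        nlinarith [show 2 ≤ N.index by omega]
      have hcQ : Nat.card (G ⧸ N) < n := by
        rw [← hn, ← Subgroup.index_eq_card]
        have h1 := Subgroup.card_mul_index N
        have h2 : Nat.card N ≠ 1 := fun h => hbot (Subgroup.card_eq_one.mp h)
        have h3 : 0 < Nat.card N := Nat.card_pos
        have h4 : 0 < N.index := Nat.pos_of_ne_zero Subgroup.index_ne_zero_of_finite
        nlinarith [show 2 ≤ Nat.card N by omega]
      haveI : Group.IsSolvable N := ih _ hcN N rfl (h.normal N)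
      haveI : Group.IsSolvable (G ⧸ N) := ih _ hcQ (G ⧸ N) rfl (h.quotient N)
      exact solvable_of_ker_le_range N.subtype (QuotientGroup.mk' N) (by
        rw [QuotientGroup.ker_mk', Subgroup.range_subtype])
    · push Not at hex
      by_cases hcomm : ∀ a b : G, a * b = b * a
      · exact isSolvable_of_comm hcomm
      · exfalso
        push Not at hcomm
        haveI : Nontrivial G := by
          obtain ⟨a, b, hab⟩ := hcomm
          exact ⟨⟨a * b, b * a, hab⟩⟩
        haveI : IsSimpleGroup G := ⟨fun N hN => by
          by_contra hcon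
          push Not at hcon
          exact hcon.2 (hex N hN hcon.1)⟩
        exact simple_contra hcomm h

end Cfsg.Agent.Lib.Lead.SqFree
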