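import Mathlib
import Cfsg.Agent.Lib.Lead.SqFreeA

set_option autoImplicit false

namespace Cfsg.Agent.Lib.Lead.SqFree

open Subgroup

section minnormal

variable {G : Type*} [Group G]

theorem eq_zpowers_of_prime_card [Finite G] {L : Subgroup G} {r : ℕ} (hr : r.Prime)
    (hL : Nat.card L = r) {u : G} (hu : u ∈ L) (hu1 : u ≠ 1) : L = Subgroup.zpowers u := by
  have hle : Subgroup.zpowers u ≤ L := (Subgroup.zpowers_le).mpr hu
  have h1 : orderOf u ∣ r := by
    have := orderOf_dvd_natCard (⟨u, hu⟩ : L)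
    rw [hL, Subgroup.orderOf_mk] at this
    exact this
  have h2 : orderOf u = r := by
    rcases (Nat.dvd_prime hr).mp h1 with h | h
    · exact absurd (orderOf_eq_one_iff.mp h) hu1
    · exact h
  exact (Subgroup.eq_of_le_of_card_ge hle (by rw [hL, Nat.card_zpowers, h2])).symm

/-- For an abelian normal subgroup `N`, the map `n ↦ n x n⁻¹ x⁻¹` is a homomorphism. -/
noncomputable def commHom (N : Subgroup G) [N.Normal] (hab : ∀ a ∈ N, ∀ b ∈ N, a * b = b * a)
    (x : G) : N →* G :=
  MonoidHom.mk' (fun n => (n : G) * x * (n : G)⁻¹ * x⁻¹) (by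
    intro n n'
    have hc : x * (n : G)⁻¹ * x⁻¹ ∈ N := ‹N.Normal›.conj_mem _ (N.inv_mem n.2) x
    have h1 : x * (n : G)⁻¹ * x⁻¹ * (n' : G) = (n' : G) * (x * (n : G)⁻¹ * x⁻¹) := hab _ hc _ n'.2
    have h2 : (n : G)⁻¹ * (n' : G)⁻¹ = (n' : G)⁻¹ * (n : G)⁻¹ :=
      hab _ (N.inv_mem n.2) _ (N.inv_mem n'.2)
    show ((n * n' : N) : G) * x * ((n * n' : N) : G)⁻¹ * x⁻¹ = _
    rw [Subgroup.coe_mul]
    calc (n : G) * n' * x * ((n : G) * n')⁻¹ * x⁻¹
        = (n : G) * n' * x * ((n' : G)⁻¹ * (n : G)⁻¹) * x⁻¹ := by group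
      _ = (n : G) * n' * x * ((n : G)⁻¹ * (n' : G)⁻¹) * x⁻¹ := by rw [h2]
      _ = (n : G) * ((n' : G) * (x * (n : G)⁻¹ * x⁻¹)) * (x * (n' : G)⁻¹ * x⁻¹) := by group
      _ = (n : G) * ((x * (n : G)⁻¹ * x⁻¹) * (n' : G)) * (x * (n' : G)⁻¹ * x⁻¹) := by rw [h1]
      _ = ((n : G) * x * (n : G)⁻¹ * x⁻¹) * ((n' : G) * x * (n' : G)⁻¹ * x⁻¹) := by group)

theorem commHom_apply (N : Subgroup G) [N.Normal] (hab : ∀ a ∈ N, ∀ b ∈ N, a * b = b * a)
    (x : G) (n : N) : commHom N hab x n = (n : G) * x * (n : G)⁻¹ * x⁻¹ := rfl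

theorem commHom_ker (N : Subgroup G) [N.Normal] (hab : ∀ a ∈ N, ∀ b ∈ N, a * b = b * a)
    (x : G) : (commHom N hab x).ker = (Subgroup.centralizer ({x} : Set G)).subgroupOf N := by
  ext n
  rw [MonoidHom.mem_ker, commHom_apply, Subgroup.mem_subgroupOf, Subgroup.mem_centralizer_iff]
  constructor
  · intro h z hz
    rw [Set.mem_singleton_iff] at hz
    subst hz
    calc z * (n : G) = ((n : G) * z * (n : G)⁻¹ * z⁻¹)⁻¹ * ((n : G) * z) := by group
      _ = (n : G) * z := by rw [h]; group
  · intro h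
    have := h x rfl
    calc (n : G) * x * (n : G)⁻¹ * x⁻¹ = (x * (n : G)) * (n : G)⁻¹ * x⁻¹ := by rw [this]
      _ = 1 := by group

theorem commHom_range_le (N : Subgroup G) [N.Normal] (hab : ∀ a ∈ N, ∀ b ∈ N, a * b = b * a)
    (x : G) : (commHom N hab x).range ≤ N := by
  rintro _ ⟨n, rfl⟩
  rw [commHom_apply]
  have hc : x * (n : G)⁻¹ * x⁻¹ ∈ N := ‹N.Normal›.conj_mem _ (N.inv_mem n.2) x
  have : (n : G) * x * (n : G)⁻¹ * x⁻¹ = (n : G) * (x * (n : G)⁻¹ * x⁻¹) := by group
  rw [this]
  exact N.mul_mem n.2 hc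

theorem commHom_card_range [Finite G] (N : Subgroup G) [N.Normal]
    (hab : ∀ a ∈ N, ∀ b ∈ N, a * b = b * a) (x : G) :
    Nat.card (commHom N hab x).range = (Subgroup.centralizer ({x} : Set G)).relIndex N := by
  rw [← Subgroup.index_ker, commHom_ker]; rfl

/-- In a solvable group with squarefree class sizes every minimal normal subgroup has prime
order. -/
theorem min_normal_prime_card [Finite G] [Group.IsSolvable G] (h : SF G) (N : Subgroup G)
    [N.Normal] (hN : N ≠ ⊥) (hmin : ∀ K : Subgroup G, K.Normal → K ≤ N → K = ⊥ ∨ K = N) :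
    (Nat.card N).Prime := by
  classical
  have hab := Cfsg.Agent.Lib.Helper5.minimal_normal_comm hN hmin
  obtain ⟨r, hr, hNr⟩ := Cfsg.Agent.Lib.Helper5.minimal_normal_isPGroup hN hmin
  haveI : Fact r.Prime := ⟨hr⟩
  obtain ⟨k, hk⟩ := IsPGroup.iff_card.mp hNr
  -- the index of a centralizer in N is 1 or r
  have hd : ∀ x : G, ¬ N ≤ Subgroup.centralizer ({x} : Set G) →
      (Subgroup.centralizer ({x} : Set G)).relIndex N = r := by
    intro x hx
    have h1 : (Subgroup.centralizer ({x} : Set G)).relIndex N ∣ r ^ k := by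
      rw [← hk]; exact Subgroup.relIndex_dvd_card _ _
    obtain ⟨j, hj, hj2⟩ := (Nat.dvd_prime_pow hr).mp h1
    have hsq := h.relIndex N x
    rw [hj2] at hsq ⊢
    have hj1 : j ≠ 0 := by
      rintro rfl
      rw [pow_zero] at hj2
      exact hx (Subgroup.relIndex_eq_one.mp hj2)
    have hj3 : j ≤ 1 := by
      by_contra hlt
      push Not at hlt
      have : r * r ∣ r ^ j := by
        calc r * r = r ^ 2 := by ring
          _ ∣ r ^ j := pow_dvd_pow r hlt
      have := hsq r this
      exact hr.one_lt.ne' (Nat.isUnit_iff.mp this)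
    have : j = 1 := by omega
    rw [this, pow_one]
  -- cards
  have hcM : ∀ x : G, Nat.card N = (Subgroup.centralizer ({x} : Set G)).relIndex N *
      Nat.card (Subgroup.centralizer ({x} : Set G) ⊓ N : Subgroup G) := by
    intro x
    have := card_eq_relIndex_mul (A := Subgroup.centralizer ({x} : Set G) ⊓ N) (B := N) inf_le_right
    rwa [Subgroup.inf_relIndex_right] at this
  -- conjugation invariance
  have hconjX : ∀ (g x : G), ¬ N ≤ Subgroup.centralizer ({x} : Set G) →
      ¬ N ≤ Subgroup.centralizer ({g * x * g⁻¹} : Set G) := by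
    intro g x hx hle
    apply hx
    intro n hn
    rw [Subgroup.mem_centralizer_iff]
    intro z hz
    rw [Set.mem_singleton_iff] at hz
    subst hz
    have hc : g * n * g⁻¹ ∈ N := ‹N.Normal›.conj_mem n hn g
    have := Subgroup.mem_centralizer_iff.mp (hle hc) (g * z * g⁻¹) rfl
    calc z * n = g⁻¹ * (g * z * g⁻¹ * (g * n * g⁻¹)) * g := by group
      _ = g⁻¹ * (g * n * g⁻¹ * (g * z * g⁻¹)) * g := by rw [this]
      _ = n * z := by group
  by_cases hX : ∃ x : G, ¬ N ≤ Subgroup.centralizer ({x} : Set G)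
  · -- dichotomy
    have hdich : ∀ x y : G, ¬ N ≤ Subgroup.centralizer ({x} : Set G) →
        ¬ N ≤ Subgroup.centralizer ({y} : Set G) →
        (Subgroup.centralizer ({x} : Set G) ⊓ N = Subgroup.centralizer ({y} : Set G) ⊓ N) ∨
        (commHom N hab x).range = (commHom N hab y).range := by
      intro x y hx hy
      by_contra hcon
      push Not at hcon
      obtain ⟨hM, hL⟩ := hcon
      have hLx : Nat.card (commHom N hab x).range = r := by rw [commHom_card_range, hd x hx]
      have hLy : Nat.card (commHom N hab y).range = r := by rw [commHom_card_range, hd y hy]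
      have hle : Subgroup.centralizer ({x * y} : Set G) ⊓ N ≤
          (Subgroup.centralizer ({x} : Set G) ⊓ N) ⊓ (Subgroup.centralizer ({y} : Set G) ⊓ N) := by
        intro n hn
        obtain ⟨hn1, hnN⟩ := Subgroup.mem_inf.mp hn
        have hcomm : x * y * n = n * (x * y) := Subgroup.mem_centralizer_iff.mp hn1 _ rfl
        -- u := φ_x(n⁻¹)
        have hu : (commHom N hab x) ⟨n⁻¹, N.inv_mem hnN⟩ ∈ (commHom N hab x).range := ⟨_, rfl⟩
        have hl : (commHom N hab y) ⟨n⁻¹, N.inv_mem hnN⟩ ∈ (commHom N hab y).range := ⟨_, rfl⟩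
        rw [commHom_apply] at hu hl
        simp only [inv_inv] at hu hl
        -- relation: n⁻¹ x n x⁻¹ = x (n⁻¹ y n y⁻¹)⁻¹ x⁻¹
        have hrel : n⁻¹ * x * n * x⁻¹ = x * (n⁻¹ * y * n * y⁻¹)⁻¹ * x⁻¹ := by
          have e1 : x * y * n * y⁻¹ * x⁻¹ = n := by rw [hcomm]; group
          calc n⁻¹ * x * n * x⁻¹ = (x * y * n * y⁻¹ * x⁻¹)⁻¹ * x * n * x⁻¹ := by rw [e1]
            _ = x * (n⁻¹ * y * n * y⁻¹)⁻¹ * x⁻¹ := by group
        have hu1 : n⁻¹ * x * n * x⁻¹ = 1 := by
          by_contra hne
          apply hL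
          have e1 := eq_zpowers_of_prime_card hr hLx hu hne
          -- x⁻¹ u x ∈ L x
          have hmem : x⁻¹ * (n⁻¹ * x * n * x⁻¹) * x ∈ (commHom N hab x).range := by
            have hc : x⁻¹ * n⁻¹ * x ∈ N := by
              have := ‹N.Normal›.conj_mem _ (N.inv_mem hnN) x⁻¹
              simpa using this
            refine ⟨⟨x⁻¹ * n⁻¹ * x, hc⟩, ?_⟩
            rw [commHom_apply]
            show x⁻¹ * n⁻¹ * x * x * (x⁻¹ * n⁻¹ * x)⁻¹ * x⁻¹ = _
            group
          have hne2 : x⁻¹ * (n⁻¹ * x * n * x⁻¹) * x ≠ 1 := by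
            intro h1
            apply hne
            calc n⁻¹ * x * n * x⁻¹ = x * (x⁻¹ * (n⁻¹ * x * n * x⁻¹) * x) * x⁻¹ := by group
              _ = 1 := by rw [h1]; group
          have e2 := eq_zpowers_of_prime_card hr hLx hmem hne2
          have hmem' : x⁻¹ * (n⁻¹ * x * n * x⁻¹) * x ∈ (commHom N hab y).range := by
            have : x⁻¹ * (n⁻¹ * x * n * x⁻¹) * x = (n⁻¹ * y * n * y⁻¹)⁻¹ := by
              rw [hrel]; group
            rw [this]
            exact Subgroup.inv_mem _ hl
          have e3 := eq_zpowers_of_prime_card hr hLy hmem' hne2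
          rw [e2, e3]
        have hl1 : n⁻¹ * y * n * y⁻¹ = 1 := by
          have : (n⁻¹ * y * n * y⁻¹)⁻¹ = x⁻¹ * (n⁻¹ * x * n * x⁻¹) * x := by
            rw [hrel]; group
          rw [hu1] at this
          have h2 : (n⁻¹ * y * n * y⁻¹)⁻¹ = 1 := by rw [this]; group
          exact inv_eq_one.mp h2
        refine Subgroup.mem_inf.mpr ⟨Subgroup.mem_inf.mpr ⟨?_, hnN⟩, Subgroup.mem_inf.mpr ⟨?_, hnN⟩⟩
        · rw [Subgroup.mem_centralizer_iff]
          intro z hz
          rw [Set.mem_singleton_iff] at hz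
          subst hz
          calc z * n = n * (n⁻¹ * z * n * z⁻¹) * z := by group
            _ = n * z := by rw [hu1]; group
        · rw [Subgroup.mem_centralizer_iff]
          intro z hz
          rw [Set.mem_singleton_iff] at hz
          subst hz
          calc z * n = n * (n⁻¹ * z * n * z⁻¹) * z := by group
            _ = n * z := by rw [hl1]; group
      -- card contradiction
      have hlt : (Subgroup.centralizer ({x} : Set G) ⊓ N) ⊓ (Subgroup.centralizer ({y} : Set G) ⊓ N)
          < Subgroup.centralizer ({x} : Set G) ⊓ N := by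
        refine lt_of_le_of_ne inf_le_left ?_
        intro heq
        apply hM
        have hle2 : Subgroup.centralizer ({x} : Set G) ⊓ N ≤ Subgroup.centralizer ({y} : Set G) ⊓ N := by
          rw [← heq]; exact inf_le_right
        apply Subgroup.eq_of_le_of_card_ge hle2
        have c1 := hcM x
        have c2 := hcM y
        rw [hd x hx] at c1
        rw [hd y hy] at c2
        have : r * Nat.card (Subgroup.centralizer ({y} : Set G) ⊓ N : Subgroup G) =
            r * Nat.card (Subgroup.centralizer ({x} : Set G) ⊓ N : Subgroup G) := by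
          rw [← c1, ← c2]
        exact (Nat.eq_of_mul_eq_mul_left hr.pos this).le
      have hclt : Nat.card (Subgroup.centralizer ({x * y} : Set G) ⊓ N : Subgroup G) <
          Nat.card (Subgroup.centralizer ({x} : Set G) ⊓ N : Subgroup G) :=
        lt_of_le_of_lt (Subgroup.card_le_of_le hle) (by
          refine lt_of_le_of_ne (Subgroup.card_le_of_le hlt.le) ?_
          intro heq
          exact hlt.ne (Subgroup.eq_of_le_of_card_ge hlt.le heq.ge))
      have c1 := hcM x
      rw [hd x hx] at c1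
      have c3 := hcM (x * y)
      by_cases hxy : N ≤ Subgroup.centralizer ({x * y} : Set G)
      · rw [Subgroup.relIndex_eq_one.mpr hxy, one_mul] at c3
        have : Nat.card (Subgroup.centralizer ({x} : Set G) ⊓ N : Subgroup G) ≤ Nat.card N :=
          Subgroup.card_le_of_le inf_le_right
        omega
      · rw [hd _ hxy] at c3
        have : r * Nat.card (Subgroup.centralizer ({x * y} : Set G) ⊓ N : Subgroup G) =
            r * Nat.card (Subgroup.centralizer ({x} : Set G) ⊓ N : Subgroup G) := by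
          rw [← c1, ← c3]
        have := Nat.eq_of_mul_eq_mul_left hr.pos this
        omega
    obtain ⟨x0, hx0⟩ := hX
    have hglobal : (∀ x y : G, ¬ N ≤ Subgroup.centralizer ({x} : Set G) →
        ¬ N ≤ Subgroup.centralizer ({y} : Set G) →
        Subgroup.centralizer ({x} : Set G) ⊓ N = Subgroup.centralizer ({y} : Set G) ⊓ N) ∨
        (∀ x y : G, ¬ N ≤ Subgroup.centralizer ({x} : Set G) →
        ¬ N ≤ Subgroup.centralizer ({y} : Set G) →
        (commHom N hab x).range = (commHom N hab y).range) := by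
      by_contra hcon
      push Not at hcon
      obtain ⟨⟨x1, y1, hx1, hy1, hM1⟩, ⟨x2, y2, hx2, hy2, hL2⟩⟩ := hcon
      have hM2 : Subgroup.centralizer ({x2} : Set G) ⊓ N = Subgroup.centralizer ({y2} : Set G) ⊓ N :=
        (hdich x2 y2 hx2 hy2).resolve_right hL2
      have key : ∀ z : G, ¬ N ≤ Subgroup.centralizer ({z} : Set G) →
          Subgroup.centralizer ({z} : Set G) ⊓ N = Subgroup.centralizer ({x2} : Set G) ⊓ N := by
        intro z hz
        rcases hdich z x2 hz hx2 with h1 | h1
        · exact h1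
        · rcases hdich z y2 hz hy2 with h2 | h2
          · rw [h2, hM2]
          · exact absurd (h1.symm.trans h2) hL2
      exact hM1 ((key x1 hx1).trans (key y1 hy1).symm)
    have hc0 := hcM x0
    rw [hd x0 hx0] at hc0
    rcases hglobal with hall | hall
    · -- common M is normal
      have hMn : (Subgroup.centralizer ({x0} : Set G) ⊓ N).Normal := by
        constructor
        intro n hn g
        rw [hall x0 (g * x0 * g⁻¹) hx0 (hconjX g x0 hx0)]
        obtain ⟨hn1, hnN⟩ := Subgroup.mem_inf.mp hn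
        refine Subgroup.mem_inf.mpr ⟨?_, ‹N.Normal›.conj_mem n hnN g⟩
        rw [Subgroup.mem_centralizer_iff]
        intro z hz
        rw [Set.mem_singleton_iff] at hz
        subst hz
        have := Subgroup.mem_centralizer_iff.mp hn1 x0 rfl
        calc g * x0 * g⁻¹ * (g * n * g⁻¹) = g * (x0 * n) * g⁻¹ := by group
          _ = g * (n * x0) * g⁻¹ := by rw [this]
          _ = g * n * g⁻¹ * (g * x0 * g⁻¹) := by group
      rcases hmin _ hMn inf_le_right with h1 | h1
      · rw [h1, Subgroup.card_bot, mul_one] at hc0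
        rw [hc0]; exact hr
      · exfalso
        apply hx0
        rw [← h1]; exact inf_le_left
    · -- common L is normal
      have hLn : ((commHom N hab x0).range).Normal := by
        constructor
        rintro _ ⟨n, rfl⟩ g
        rw [hall x0 (g * x0 * g⁻¹) hx0 (hconjX g x0 hx0)]
        refine ⟨⟨g * (n : G) * g⁻¹, ‹N.Normal›.conj_mem _ n.2 g⟩, ?_⟩
        rw [commHom_apply, commHom_apply]
        show g * (n : G) * g⁻¹ * (g * x0 * g⁻¹) * (g * (n : G) * g⁻¹)⁻¹ * (g * x0 * g⁻¹)⁻¹ = _
        group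
      have hLc : Nat.card (commHom N hab x0).range = r := by
        rw [commHom_card_range, hd x0 hx0]
      rcases hmin _ hLn (commHom_range_le N hab x0) with h1 | h1
      · rw [h1, Subgroup.card_bot] at hLc
        exact absurd hLc.symm hr.one_lt.ne'
      · rw [← h1, hLc]; exact hr
  · -- N is central
    push Not at hX
    have hN1 : Nat.card N ≠ 1 := fun h1 => hN (Subgroup.card_eq_one.mp h1)
    have hk0 : k ≠ 0 := by
      rintro rfl
      rw [pow_zero] at hk
      exact hN1 hk
    have hrd : r ∣ Nat.card N := by rw [hk]; exact dvd_pow_self r hk0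
    obtain ⟨u, hu⟩ := exists_prime_orderOf_dvd_card' (G := N) r hrd
    have hKn : (Subgroup.zpowers (u : G)).Normal := by
      constructor
      intro z hz g
      have hzN : z ∈ N := (Subgroup.zpowers_le.mpr u.2) hz
      have := Subgroup.mem_centralizer_iff.mp (hX g hzN) g rfl
      have e : g * z * g⁻¹ = z := by rw [this]; group
      rw [e]; exact hz
    rcases hmin _ hKn (Subgroup.zpowers_le.mpr u.2) with h1 | h1
    · exfalso
      have : (u : G) = 1 := by
        have hm : (u : G) ∈ Subgroup.zpowers (u : G) := Subgroup.mem_zpowers _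
        rw [h1] at hm
        exact Subgroup.mem_bot.mp hm
      have h2 : orderOf (u : G) = r := by rw [Subgroup.orderOf_coe]; exact hu
      rw [this, orderOf_one] at h2
      exact hr.one_lt.ne h2
    · rw [← h1, Nat.card_zpowers, Subgroup.orderOf_coe, hu]; exact hr

end minnormal


section nilp

theorem commutator_le_centralizer_of_prime_card {G : Type*} [Group G] [Finite G]
    (N : Subgroup G) [N.Normal] (hN : (Nat.card N).Prime) :
    commutator G ≤ Subgroup.centralizer (N : Set G) := by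
  have hN1 : N ≠ ⊥ := by
    intro h
    rw [h, Subgroup.card_bot] at hN
    exact Nat.not_prime_one hN
  obtain ⟨u, huN, hu1⟩ : ∃ u ∈ N, u ≠ 1 := by
    by_contra hcon
    push Not at hcon
    exact hN1 ((Subgroup.eq_bot_iff_forall _).mpr hcon)
  have hNu : N = Subgroup.zpowers u := eq_zpowers_of_prime_card hN rfl huN hu1
  have hpow : ∀ g : G, ∃ i : ℤ, g * u * g⁻¹ = u ^ i := by
    intro g
    have : g * u * g⁻¹ ∈ N := ‹N.Normal›.conj_mem u huN g
    rw [hNu] at this
    obtain ⟨i, hi⟩ := Subgroup.mem_zpowers_iff.mp this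
    exact ⟨i, hi.symm⟩
  have hst : ∀ s t : G, s * t * u * t⁻¹ * s⁻¹ = t * s * u * s⁻¹ * t⁻¹ := by
    intro s t
    obtain ⟨i, hi⟩ := hpow s
    obtain ⟨j, hj⟩ := hpow t
    have e1 : s * t * u * t⁻¹ * s⁻¹ = s * (t * u * t⁻¹) * s⁻¹ := by group
    have e2 : t * s * u * s⁻¹ * t⁻¹ = t * (s * u * s⁻¹) * t⁻¹ := by group
    rw [e1, e2, hi, hj, ← conj_zpow, ← conj_zpow, hi, hj, ← zpow_mul, ← zpow_mul, mul_comm]
  rw [commutator_eq_closure, Subgroup.closure_le]
  rintro _ ⟨a, b, rfl⟩
  rw [SetLike.mem_coe, Subgroup.mem_centralizer_iff]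
  intro n hn
  have hn' : n ∈ Subgroup.zpowers u := by rw [← hNu]; exact hn
  obtain ⟨i, rfl⟩ := Subgroup.mem_zpowers_iff.mp hn'
  have hcu : a * b * a⁻¹ * b⁻¹ * u = u * (a * b * a⁻¹ * b⁻¹) := by
    have := hst b⁻¹ a⁻¹
    simp only [inv_inv] at this
    calc a * b * a⁻¹ * b⁻¹ * u = a * b * (a⁻¹ * b⁻¹ * u * b * a) * a⁻¹ * b⁻¹ := by group
      _ = a * b * (b⁻¹ * a⁻¹ * u * a * b) * a⁻¹ * b⁻¹ := by rw [this]
      _ = u * (a * b * a⁻¹ * b⁻¹) := by group
  exact ((show Commute (a * b * a⁻¹ * b⁻¹) u from hcu).zpow_right i).eq.symm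

theorem card_quotient_lt {G : Type*} [Group G] [Finite G] (N : Subgroup G) [N.Normal]
    (hN : N ≠ ⊥) : Nat.card (G ⧸ N) < Nat.card G := by
  rw [← Subgroup.index_eq_card]
  have h1 := Subgroup.card_mul_index N
  have h2 : Nat.card N ≠ 1 := fun h => hN (Subgroup.card_eq_one.mp h)
  have h3 : 0 < Nat.card N := Nat.card_pos
  have h4 : 0 < N.index := Nat.pos_of_ne_zero Subgroup.index_ne_zero_of_finite
  nlinarith [show 2 ≤ Nat.card N by omega]

/-- With squarefree class sizes the commutator subgroup is nilpotent. -/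
theorem SF.commutator_nilpotent : ∀ (n : ℕ) (G : Type*) [Group G] [Finite G],
    Nat.card G = n → SF G → Group.IsNilpotent (commutator G) := by
  intro n
  induction n using Nat.strong_induction_on with
  | _ n ih =>
    intro G _ _ hn h
    by_cases htriv : (⊤ : Subgroup G) = ⊥
    · haveI : Subsingleton G := by
        constructor
        intro a b
        have ha : a ∈ (⊤ : Subgroup G) := trivial
        have hb : b ∈ (⊤ : Subgroup G) := trivial
        rw [htriv, Subgroup.mem_bot] at ha hb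
        rw [ha, hb]
      infer_instance
    · haveI : Group.IsSolvable G := SF.isSolvable _ G rfl h
      obtain ⟨N, hNn, hN1, -, hmin⟩ :=
        Cfsg.Agent.Lib.Helper5.exists_minimal_normal (⊤ : Subgroup G) inferInstance htriv
      haveI := hNn
      have hprime := min_normal_prime_card h N hN1 hmin
      have hcen := commutator_le_centralizer_of_prime_card N hprime
      have hcQ : Nat.card (G ⧸ N) < n := hn ▸ card_quotient_lt N hN1
      haveI : Group.IsNilpotent (commutator (G ⧸ N)) := ih _ hcQ (G ⧸ N) rfl (h.quotient N)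
      have hmap : ∀ x : commutator G,
          ((QuotientGroup.mk' N).comp (commutator G).subtype) x ∈ commutator (G ⧸ N) := by
        intro x
        have h1 : (commutator G).map (QuotientGroup.mk' N) ≤ commutator (G ⧸ N) := by
          rw [commutator_def, commutator_def, Subgroup.map_commutator]
          exact Subgroup.commutator_mono le_top le_top
        exact h1 ⟨x, x.2, rfl⟩
      apply _root_.isNilpotent_of_ker_le_center
        (((QuotientGroup.mk' N).comp (commutator G).subtype).codRestrict _ hmap)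
      intro x hx
      rw [Subgroup.mem_center_iff]
      intro z
      have hxN : (x : G) ∈ N := by
        have h2 := congrArg Subtype.val (MonoidHom.mem_ker.mp hx)
        have h3 : ((x : G) : G ⧸ N) = 1 := h2
        exact (QuotientGroup.eq_one_iff _).mp h3
      have := Subgroup.mem_centralizer_iff.mp (hcen z.2) (x : G) hxN
      exact Subtype.ext this.symm

end nilp


section dichotomy

variable {G : Type*} [Group G]

/-- The pseudo-reflection dichotomy for an abelian normal subgroup all of whose centralizer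
indices are `1` or a fixed prime `r`. -/
theorem dich [Finite G] (N : Subgroup G) [N.Normal] (hab : ∀ a ∈ N, ∀ b ∈ N, a * b = b * a)
    (r : ℕ) (hr : r.Prime)
    (hd : ∀ x : G, ¬ N ≤ Subgroup.centralizer ({x} : Set G) →
      (Subgroup.centralizer ({x} : Set G)).relIndex N = r) :
    ∀ x y : G, ¬ N ≤ Subgroup.centralizer ({x} : Set G) →
        ¬ N ≤ Subgroup.centralizer ({y} : Set G) →
        (Subgroup.centralizer ({x} : Set G) ⊓ N = Subgroup.centralizer ({y} : Set G) ⊓ N) ∨
        (commHom N hab x).range = (commHom N hab y).range := by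
  have hcM : ∀ x : G, Nat.card N = (Subgroup.centralizer ({x} : Set G)).relIndex N *
      Nat.card (Subgroup.centralizer ({x} : Set G) ⊓ N : Subgroup G) := by
    intro x
    have := card_eq_relIndex_mul (A := Subgroup.centralizer ({x} : Set G) ⊓ N) (B := N) inf_le_right
    rwa [Subgroup.inf_relIndex_right] at this
  intro x y hx hy
  by_contra hcon
  push Not at hcon
  obtain ⟨hM, hL⟩ := hcon
  have hLx : Nat.card (commHom N hab x).range = r := by rw [commHom_card_range, hd x hx]
  have hLy : Nat.card (commHom N hab y).range = r := by rw [commHom_card_range, hd y hy]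
  have hle : Subgroup.centralizer ({x * y} : Set G) ⊓ N ≤
      (Subgroup.centralizer ({x} : Set G) ⊓ N) ⊓ (Subgroup.centralizer ({y} : Set G) ⊓ N) := by
    intro n hn
    obtain ⟨hn1, hnN⟩ := Subgroup.mem_inf.mp hn
    have hcomm : x * y * n = n * (x * y) := Subgroup.mem_centralizer_iff.mp hn1 _ rfl
    -- u := φ_x(n⁻¹)
    have hu : (commHom N hab x) ⟨n⁻¹, N.inv_mem hnN⟩ ∈ (commHom N hab x).range := ⟨_, rfl⟩
    have hl : (commHom N hab y) ⟨n⁻¹, N.inv_mem hnN⟩ ∈ (commHom N hab y).range := ⟨_, rfl⟩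
    rw [commHom_apply] at hu hl
    simp only [inv_inv] at hu hl
    -- relation: n⁻¹ x n x⁻¹ = x (n⁻¹ y n y⁻¹)⁻¹ x⁻¹
    have hrel : n⁻¹ * x * n * x⁻¹ = x * (n⁻¹ * y * n * y⁻¹)⁻¹ * x⁻¹ := by
      have e1 : x * y * n * y⁻¹ * x⁻¹ = n := by rw [hcomm]; group
      calc n⁻¹ * x * n * x⁻¹ = (x * y * n * y⁻¹ * x⁻¹)⁻¹ * x * n * x⁻¹ := by rw [e1]
        _ = x * (n⁻¹ * y * n * y⁻¹)⁻¹ * x⁻¹ := by group
    have hu1 : n⁻¹ * x * n * x⁻¹ = 1 := by
      by_contra hne
      apply hL
      have e1 := eq_zpowers_of_prime_card hr hLx hu hne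
      -- x⁻¹ u x ∈ L x
      have hmem : x⁻¹ * (n⁻¹ * x * n * x⁻¹) * x ∈ (commHom N hab x).range := by
        have hc : x⁻¹ * n⁻¹ * x ∈ N := by
          have := ‹N.Normal›.conj_mem _ (N.inv_mem hnN) x⁻¹
          simpa using this
        refine ⟨⟨x⁻¹ * n⁻¹ * x, hc⟩, ?_⟩
        rw [commHom_apply]
        show x⁻¹ * n⁻¹ * x * x * (x⁻¹ * n⁻¹ * x)⁻¹ * x⁻¹ = _
        group
      have hne2 : x⁻¹ * (n⁻¹ * x * n * x⁻¹) * x ≠ 1 := by
        intro h1
        apply hne
        calc n⁻¹ * x * n * x⁻¹ = x * (x⁻¹ * (n⁻¹ * x * n * x⁻¹) * x) * x⁻¹ := by group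
          _ = 1 := by rw [h1]; group
      have e2 := eq_zpowers_of_prime_card hr hLx hmem hne2
      have hmem' : x⁻¹ * (n⁻¹ * x * n * x⁻¹) * x ∈ (commHom N hab y).range := by
        have : x⁻¹ * (n⁻¹ * x * n * x⁻¹) * x = (n⁻¹ * y * n * y⁻¹)⁻¹ := by
          rw [hrel]; group
        rw [this]
        exact Subgroup.inv_mem _ hl
      have e3 := eq_zpowers_of_prime_card hr hLy hmem' hne2
      rw [e2, e3]
    have hl1 : n⁻¹ * y * n * y⁻¹ = 1 := by
      have : (n⁻¹ * y * n * y⁻¹)⁻¹ = x⁻¹ * (n⁻¹ * x * n * x⁻¹) * x := by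
        rw [hrel]; group
      rw [hu1] at this
      have h2 : (n⁻¹ * y * n * y⁻¹)⁻¹ = 1 := by rw [this]; group
      exact inv_eq_one.mp h2
    refine Subgroup.mem_inf.mpr ⟨Subgroup.mem_inf.mpr ⟨?_, hnN⟩, Subgroup.mem_inf.mpr ⟨?_, hnN⟩⟩
    · rw [Subgroup.mem_centralizer_iff]
      intro z hz
      rw [Set.mem_singleton_iff] at hz
      subst hz
      calc z * n = n * (n⁻¹ * z * n * z⁻¹) * z := by group
        _ = n * z := by rw [hu1]; group
    · rw [Subgroup.mem_centralizer_iff]
      intro z hz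
      rw [Set.mem_singleton_iff] at hz
      subst hz
      calc z * n = n * (n⁻¹ * z * n * z⁻¹) * z := by group
        _ = n * z := by rw [hl1]; group
  -- card contradiction
  have hlt : (Subgroup.centralizer ({x} : Set G) ⊓ N) ⊓ (Subgroup.centralizer ({y} : Set G) ⊓ N)
      < Subgroup.centralizer ({x} : Set G) ⊓ N := by
    refine lt_of_le_of_ne inf_le_left ?_
    intro heq
    apply hM
    have hle2 : Subgroup.centralizer ({x} : Set G) ⊓ N ≤ Subgroup.centralizer ({y} : Set G) ⊓ N := by
      rw [← heq]; exact inf_le_right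
    apply Subgroup.eq_of_le_of_card_ge hle2
    have c1 := hcM x
    have c2 := hcM y
    rw [hd x hx] at c1
    rw [hd y hy] at c2
    have : r * Nat.card (Subgroup.centralizer ({y} : Set G) ⊓ N : Subgroup G) =
        r * Nat.card (Subgroup.centralizer ({x} : Set G) ⊓ N : Subgroup G) := by
      rw [← c1, ← c2]
    exact (Nat.eq_of_mul_eq_mul_left hr.pos this).le
  have hclt : Nat.card (Subgroup.centralizer ({x * y} : Set G) ⊓ N : Subgroup G) <
      Nat.card (Subgroup.centralizer ({x} : Set G) ⊓ N : Subgroup G) :=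
    lt_of_le_of_lt (Subgroup.card_le_of_le hle) (by
      refine lt_of_le_of_ne (Subgroup.card_le_of_le hlt.le) ?_
      intro heq
      exact hlt.ne (Subgroup.eq_of_le_of_card_ge hlt.le heq.ge))
  have c1 := hcM x
  rw [hd x hx] at c1
  have c3 := hcM (x * y)
  by_cases hxy : N ≤ Subgroup.centralizer ({x * y} : Set G)
  · rw [Subgroup.relIndex_eq_one.mpr hxy, one_mul] at c3
    have : Nat.card (Subgroup.centralizer ({x} : Set G) ⊓ N : Subgroup G) ≤ Nat.card N :=
      Subgroup.card_le_of_le inf_le_right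
    omega
  · rw [hd _ hxy] at c3
    have : r * Nat.card (Subgroup.centralizer ({x * y} : Set G) ⊓ N : Subgroup G) =
        r * Nat.card (Subgroup.centralizer ({x} : Set G) ⊓ N : Subgroup G) := by
      rw [← c1, ← c3]
    have := Nat.eq_of_mul_eq_mul_left hr.pos this
    omega

/-- Coprime fixed point lemma: if `k a k⁻¹ = a w` with `w` commuting with `k` and of order
coprime to that of `k`, then `w = 1`. -/
theorem coprime_fix (a k w : G) (hw : w = a⁻¹ * (k * a * k⁻¹)) (hc : k * w = w * k)
    (hcop : (orderOf w).Coprime (orderOf k)) : w = 1 := by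
  have h1 : ∀ i : ℕ, k ^ i * a * (k ^ i)⁻¹ = a * w ^ i := by
    intro i
    induction i with
    | zero => simp
    | succ i ih =>
      have hci : k * w ^ i = w ^ i * k := (show Commute k w from hc).pow_right i
      calc k ^ (i + 1) * a * (k ^ (i + 1))⁻¹ = k * (k ^ i * a * (k ^ i)⁻¹) * k⁻¹ := by
            rw [pow_succ']; group
        _ = k * (a * w ^ i) * k⁻¹ := by rw [ih]
        _ = (k * a * k⁻¹) * (k * w ^ i) * k⁻¹ := by group
        _ = (k * a * k⁻¹) * (w ^ i * k) * k⁻¹ := by rw [hci]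
        _ = a * (a⁻¹ * (k * a * k⁻¹)) * w ^ i := by group
        _ = a * w * w ^ i := by rw [← hw]
        _ = a * w ^ (i + 1) := by rw [pow_succ']; group
  have h2 := h1 (orderOf k)
  rw [pow_orderOf_eq_one] at h2
  have h3 : w ^ orderOf k = 1 := by
    have : a = a * w ^ orderOf k := by simpa using h2
    exact (mul_eq_left.mp this.symm)
  have h4 : orderOf w ∣ orderOf k := orderOf_dvd_of_pow_eq_one h3
  have h5 : orderOf w ∣ 1 := by
    rw [← Nat.Coprime.gcd_eq_one hcop]
    exact Nat.dvd_gcd dvd_rfl h4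
  exact orderOf_eq_one_iff.mp (Nat.dvd_one.mp h5)

/-- Commuting elements of coprime orders lie in the cyclic group generated by their
product. -/
theorem mem_zpowers_mul_of_coprime (a b : G) (hc : a * b = b * a)
    (hcop : (orderOf a).Coprime (orderOf b)) :
    a ∈ Subgroup.zpowers (a * b) ∧ b ∈ Subgroup.zpowers (a * b) := by
  have hcm : Commute a b := hc
  have key : ∀ (c d : G), Commute c d → (orderOf c).Coprime (orderOf d) →
      c ∈ Subgroup.zpowers (c * d) := by
    intro c d hcd hco
    have hI : IsCoprime (orderOf c : ℤ) (orderOf d : ℤ) := Nat.isCoprime_iff_coprime.mpr hco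
    obtain ⟨x, y, hxy⟩ := hI
    have e1 : (c * d) ^ orderOf d = c ^ orderOf d := by
      rw [hcd.mul_pow, pow_orderOf_eq_one, mul_one]
    have e2 : c = (c ^ orderOf d) ^ y := by
      have : c ^ (x * (orderOf c : ℤ) + y * (orderOf d : ℤ)) = c := by rw [hxy, zpow_one]
      rw [zpow_add, mul_comm x, zpow_mul, zpow_natCast, pow_orderOf_eq_one, one_zpow, one_mul,
        mul_comm y, zpow_mul, zpow_natCast] at this
      exact this.symm
    have hmem : ((c * d) ^ orderOf d) ^ y ∈ Subgroup.zpowers (c * d) :=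
      Subgroup.zpow_mem _ (Subgroup.pow_mem _ (Subgroup.mem_zpowers (c * d)) _) _
    rw [e1, ← e2] at hmem
    exact hmem
  refine ⟨key a b hcm hcop, ?_⟩
  have := key b a hcm.symm hcop.symm
  rwa [← hc] at this

theorem centralizer_mul_le_of_coprime (a b : G) (hc : a * b = b * a)
    (hcop : (orderOf a).Coprime (orderOf b)) :
    Subgroup.centralizer ({a * b} : Set G) ≤
      Subgroup.centralizer ({a} : Set G) ⊓ Subgroup.centralizer ({b} : Set G) := by
  obtain ⟨ha, hb⟩ := mem_zpowers_mul_of_coprime a b hc hcop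
  intro g hg
  have hg' : Commute g (a * b) := (Subgroup.mem_centralizer_iff.mp hg _ rfl).symm
  obtain ⟨i, hi⟩ := Subgroup.mem_zpowers_iff.mp ha
  obtain ⟨j, hj⟩ := Subgroup.mem_zpowers_iff.mp hb
  refine Subgroup.mem_inf.mpr ⟨?_, ?_⟩
  · rw [Subgroup.mem_centralizer_iff]
    intro z hz
    rw [Set.mem_singleton_iff] at hz
    subst hz
    rw [← hi]
    exact (hg'.zpow_right i).eq.symm
  · rw [Subgroup.mem_centralizer_iff]
    intro z hz
    rw [Set.mem_singleton_iff] at hz
    subst hz
    rw [← hj]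
    exact (hg'.zpow_right j).eq.symm

end dichotomy

end Cfsg.Agent.Lib.Lead.SqFree
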