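import Mathlib
import Cfsg.Agent.Lib.Lead.SqFreeB

set_option autoImplicit false

namespace Cfsg.Agent.Lib.Lead.SqFree

open Subgroup

section knoche

variable {G : Type*} [Group G]

theorem sf_dvd_prime_pow {q m n : ℕ} (hq : q.Prime) (hsq : Squarefree m) (hd : m ∣ q ^ n) :
    m = 1 ∨ m = q := by
  obtain ⟨j, -, rfl⟩ := (Nat.dvd_prime_pow hq).mp hd
  rcases j with _ | _ | j
  · left; simp
  · right; simp
  · exfalso
    have h1 : q * q ∣ q ^ (j + 1 + 1) := ⟨q ^ j, by ring⟩
    exact hq.one_lt.ne' (Nat.isUnit_iff.mp (hsq q h1))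

theorem mem_cent_single {x g : G} :
    g ∈ Subgroup.centralizer ({x} : Set G) ↔ x * g = g * x := by
  rw [Subgroup.mem_centralizer_iff]
  constructor
  · intro h; exact h x rfl
  · intro h z hz
    rw [Set.mem_singleton_iff] at hz
    rw [hz]; exact h

/-- When all commutators are central, `y ↦ y x y⁻¹ x⁻¹` is a homomorphism. -/
noncomputable def commHomC
    (hc : ∀ a b c : G, a * b * a⁻¹ * b⁻¹ * c = c * (a * b * a⁻¹ * b⁻¹)) (x : G) : G →* G :=
  MonoidHom.mk' (fun y => y * x * y⁻¹ * x⁻¹) (by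
    intro y y'
    have h1 := hc y' x (x * y⁻¹ * x⁻¹)
    calc y * y' * x * (y * y')⁻¹ * x⁻¹
        = y * ((y' * x * y'⁻¹ * x⁻¹) * (x * y⁻¹ * x⁻¹)) := by group
      _ = y * ((x * y⁻¹ * x⁻¹) * (y' * x * y'⁻¹ * x⁻¹)) := by rw [h1]
      _ = (y * x * y⁻¹ * x⁻¹) * (y' * x * y'⁻¹ * x⁻¹) := by group)

theorem commHomC_apply (hc : ∀ a b c : G, a * b * a⁻¹ * b⁻¹ * c = c * (a * b * a⁻¹ * b⁻¹))
    (x y : G) : commHomC hc x y = y * x * y⁻¹ * x⁻¹ := rfl

theorem commHomC_ker (hc : ∀ a b c : G, a * b * a⁻¹ * b⁻¹ * c = c * (a * b * a⁻¹ * b⁻¹))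
    (x : G) : (commHomC hc x).ker = Subgroup.centralizer ({x} : Set G) := by
  ext y
  rw [MonoidHom.mem_ker, commHomC_apply, mem_cent_single]
  constructor
  · intro h
    calc x * y = (y * x * y⁻¹ * x⁻¹)⁻¹ * (y * x) := by group
      _ = y * x := by rw [h]; group
  · intro h
    calc y * x * y⁻¹ * x⁻¹ = (x * y) * y⁻¹ * x⁻¹ := by rw [h]
      _ = 1 := by group

/-- Knoche: a finite `q`-group with squarefree class sizes has derived subgroup of order
dividing `q`. -/
theorem knoche [Finite G] (q : ℕ) [Fact q.Prime] (hQ : IsPGroup q G) (h : SF G) :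
    Nat.card (commutator G) ∣ q := by
  have hq := (Fact.out : q.Prime)
  have hidx : ∀ x : G, (Subgroup.centralizer ({x} : Set G)).index = 1 ∨
      (Subgroup.centralizer ({x} : Set G)).index = q := by
    intro x
    obtain ⟨n, hn⟩ := IsPGroup.iff_card.mp hQ
    exact sf_dvd_prime_pow hq (h x) (hn ▸ Subgroup.index_dvd_card _)
  have hcen : ∀ a b c : G, a * b * a⁻¹ * b⁻¹ * c = c * (a * b * a⁻¹ * b⁻¹) := by
    intro a b c
    have hP : IsPGroup q (⊤ : Subgroup G) := hQ.to_subgroup ⊤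
    have hdv : (Subgroup.centralizer ({c} : Set G)).index ∣ q := by
      rcases hidx c with h1 | h1
      · rw [h1]; exact one_dvd q
      · rw [h1]
    have hcard : Nat.card (⊤ : Subgroup G) ∣
        q * Nat.card (Subgroup.centralizer ({c} : Set G)) := by
      rw [Subgroup.card_top, ← Subgroup.card_mul_index (Subgroup.centralizer ({c} : Set G)),
        mul_comm q]
      exact Nat.mul_dvd_mul_left _ hdv
    have h2 := (comm_pow_mem_of_card_dvd hP le_top hcard a (Subgroup.mem_top a) b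
      (Subgroup.mem_top b)).1
    exact (mem_cent_single.mp h2).symm
  have hcardL : ∀ x : G, ¬ (∀ y : G, y * x = x * y) →
      Nat.card (commHomC hcen x).range = q := by
    intro x hx
    rw [← Subgroup.index_ker, commHomC_ker]
    rcases hidx x with h1 | h1
    · exfalso
      apply hx
      intro y
      have h2 : y ∈ Subgroup.centralizer ({x} : Set G) := by
        rw [Subgroup.index_eq_one.mp h1]; trivial
      exact (mem_cent_single.mp h2).symm
    · exact h1
  have hK1 : ∀ g x : G, g * x ≠ x * g →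
      (commHomC hcen g).range = (commHomC hcen x).range := by
    intro g x hgx
    have hxc : ¬ (∀ y : G, y * x = x * y) := fun hh => hgx (hh g)
    have hgc : ¬ (∀ y : G, y * g = g * y) := fun hh => hgx (hh x).symm
    have hu1 : g * x * g⁻¹ * x⁻¹ ≠ 1 := by
      intro hh
      apply hgx
      calc g * x = (g * x * g⁻¹ * x⁻¹) * (x * g) := by group
        _ = x * g := by rw [hh, one_mul]
    have hux : g * x * g⁻¹ * x⁻¹ ∈ (commHomC hcen x).range := ⟨g, rfl⟩
    have hug : g * x * g⁻¹ * x⁻¹ ∈ (commHomC hcen g).range := by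
      have h3 : (x * g * x⁻¹ * g⁻¹)⁻¹ ∈ (commHomC hcen g).range :=
        (commHomC hcen g).range.inv_mem ⟨x, rfl⟩
      have e : (x * g * x⁻¹ * g⁻¹)⁻¹ = g * x * g⁻¹ * x⁻¹ := by group
      rwa [e] at h3
    exact (eq_zpowers_of_prime_card hq (hcardL g hgc) hug hu1).trans
      (eq_zpowers_of_prime_card hq (hcardL x hxc) hux hu1).symm
  by_cases hab : ∀ x y : G, y * x = x * y
  · have hle : commutator G ≤ ⊥ := by
      rw [commutator_eq_closure, Subgroup.closure_le]
      rintro _ ⟨a, b, rfl⟩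
      show a * b * a⁻¹ * b⁻¹ ∈ (⊥ : Subgroup G)
      rw [Subgroup.mem_bot, hab b a]; group
    have h4 := Subgroup.card_dvd_of_le hle
    rw [Subgroup.card_bot] at h4
    exact h4.trans (one_dvd q)
  · push Not at hab
    obtain ⟨x0, y0, hxy0⟩ := hab
    have hx0 : ¬ (∀ y : G, y * x0 = x0 * y) := fun hh => hxy0 (hh y0)
    have hall : ∀ b : G, ¬ (∀ y : G, y * b = b * y) →
        (commHomC hcen b).range = (commHomC hcen x0).range := by
      intro b hb
      push Not at hb
      obtain ⟨a, ha⟩ := hb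
      by_cases h1 : a * x0 = x0 * a
      · by_cases h2 : y0 * b = b * y0
        · have hg1 : (a * y0) * b ≠ b * (a * y0) := by
            intro hh
            apply ha
            have h5 : a * b * y0 = b * a * y0 := by
              calc a * b * y0 = a * (b * y0) := by group
                _ = a * (y0 * b) := by rw [h2]
                _ = a * y0 * b := by group
                _ = b * (a * y0) := hh
                _ = b * a * y0 := by group
            exact mul_right_cancel h5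
          have hg2 : (a * y0) * x0 ≠ x0 * (a * y0) := by
            intro hh
            apply hxy0
            have h5 : a * (y0 * x0) = a * (x0 * y0) := by
              calc a * (y0 * x0) = a * y0 * x0 := by group
                _ = x0 * (a * y0) := hh
                _ = (x0 * a) * y0 := by group
                _ = (a * x0) * y0 := by rw [h1]
                _ = a * (x0 * y0) := by group
            exact mul_left_cancel h5
          exact (hK1 _ _ hg1).symm.trans (hK1 _ _ hg2)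
        · exact (hK1 _ _ h2).symm.trans (hK1 _ _ hxy0)
      · exact (hK1 _ _ ha).symm.trans (hK1 _ _ h1)
    have hle : commutator G ≤ (commHomC hcen x0).range := by
      rw [commutator_eq_closure, Subgroup.closure_le]
      rintro _ ⟨a, b, rfl⟩
      show a * b * a⁻¹ * b⁻¹ ∈ (commHomC hcen x0).range
      by_cases hb : ∀ y : G, y * b = b * y
      · have e : a * b * a⁻¹ * b⁻¹ = 1 := by rw [hb a]; group
        rw [e]; exact Subgroup.one_mem _
      · rw [← hall b hb]; exact ⟨a, rfl⟩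
    have h4 := Subgroup.card_dvd_of_le hle
    rwa [hcardL x0 hx0] at h4

end knoche

section reduced

variable {G : Type*} [Group G]

theorem normal_of_commutator_le (Q : Subgroup G) (hQ : commutator G ≤ Q) : Q.Normal := by
  constructor
  intro a ha g
  have h1 : g * a * g⁻¹ * a⁻¹ ∈ Q := hQ (by
    rw [commutator_eq_closure]; exact Subgroup.subset_closure ⟨g, a, rfl⟩)
  have e : g * a * g⁻¹ = (g * a * g⁻¹ * a⁻¹) * a := by group
  rw [e]; exact Q.mul_mem h1 ha

theorem coprime_orderOf_of_mem {q : ℕ} {Q : Subgroup G} (hQp : IsPGroup q Q) {a k : G}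
    (ha : a ∈ Q) (hk : (orderOf k).Coprime q) : (orderOf a).Coprime (orderOf k) := by
  obtain ⟨n, hn⟩ := hQp ⟨a, ha⟩
  have h1 : orderOf a ∣ q ^ n := by
    apply orderOf_dvd_of_pow_eq_one
    have h2 := congrArg Subtype.val hn
    simpa using h2
  exact Nat.Coprime.coprime_dvd_left h1 (Nat.Coprime.pow_left n hk.symm)

theorem SF.relIndex_pgroup [Finite G] (h : SF G) (q : ℕ) [Fact q.Prime] (Q : Subgroup G)
    [Q.Normal] (hQp : IsPGroup q Q) (x : G) :
    (Subgroup.centralizer ({x} : Set G)).relIndex Q = 1 ∨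
      (Subgroup.centralizer ({x} : Set G)).relIndex Q = q := by
  obtain ⟨n, hn⟩ := IsPGroup.iff_card.mp hQp
  exact sf_dvd_prime_pow Fact.out (h.relIndex Q x) (hn ▸ Subgroup.relIndex_dvd_card _ _)

/-- A normal `q`-subgroup that is not centralized by some `q'`-element is abelian. -/
theorem abelian_of_coprime_noncentralizing [Finite G] (h : SF G) (q : ℕ) [Fact q.Prime]
    (Q : Subgroup G) [hQn : Q.Normal] (hQp : IsPGroup q Q) (h0 : G)
    (hcop : (orderOf h0).Coprime q)
    (hnc : ¬ Q ≤ Subgroup.centralizer ({h0} : Set G)) : ∀ a ∈ Q, ∀ b ∈ Q, a * b = b * a := by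
  have hq := (Fact.out : q.Prime)
  obtain ⟨M, hM⟩ : ∃ M : Subgroup G, M = Subgroup.centralizer ({h0} : Set G) ⊓ Q := ⟨_, rfl⟩
  have hMQ : M ≤ Q := by rw [hM]; exact inf_le_right
  have hMmem : ∀ m : G, m ∈ M ↔ (h0 * m = m * h0 ∧ m ∈ Q) := by
    intro m
    rw [hM, Subgroup.mem_inf, mem_cent_single]
  have hrel : (Subgroup.centralizer ({h0} : Set G)).relIndex Q = q := by
    rcases h.relIndex_pgroup q Q hQp h0 with h1 | h1
    · exact absurd (Subgroup.relIndex_eq_one.mp h1) hnc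
    · exact h1
  have hcardQ : Nat.card Q = q * Nat.card M := by
    have h1 := card_eq_relIndex_mul hMQ
    have e : M.relIndex Q = q := by rw [hM, Subgroup.inf_relIndex_right]; exact hrel
    rwa [e] at h1
  -- M is abelian
  have hMab : ∀ a ∈ M, ∀ m ∈ M, m * a = a * m := by
    intro a ha m hm
    obtain ⟨hah, haQ⟩ := (hMmem a).mp ha
    have hco : (orderOf a).Coprime (orderOf h0) := coprime_orderOf_of_mem hQp haQ hcop
    have hle := centralizer_mul_le_of_coprime a h0 hah.symm hco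
    have hle2 : Subgroup.centralizer ({a * h0} : Set G) ⊓ Q ≤ M := by
      rw [hM]
      exact inf_le_inf (hle.trans inf_le_right) le_rfl
    have hc1 := card_eq_relIndex_mul
      (inf_le_right : Subgroup.centralizer ({a * h0} : Set G) ⊓ Q ≤ Q)
    rw [Subgroup.inf_relIndex_right] at hc1
    have hge : Nat.card M ≤
        Nat.card (Subgroup.centralizer ({a * h0} : Set G) ⊓ Q : Subgroup G) := by
      rcases h.relIndex_pgroup q Q hQp (a * h0) with h1 | h1
      · rw [h1, one_mul] at hc1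
        rw [← hc1]
        exact Subgroup.card_le_of_le hMQ
      · rw [h1, hcardQ] at hc1
        exact (Nat.eq_of_mul_eq_mul_left hq.pos hc1).le
    have heq := Subgroup.eq_of_le_of_card_ge hle2 hge
    have hm' : m ∈ Subgroup.centralizer ({a * h0} : Set G) ⊓ Q := by rw [heq]; exact hm
    have hm2 : m ∈ Subgroup.centralizer ({a} : Set G) :=
      (Subgroup.mem_inf.mp (hle (Subgroup.mem_inf.mp hm').1)).1
    exact (mem_cent_single.mp hm2).symm
  -- M is normalized by Q
  have hMn : ∀ g ∈ Q, ∀ m ∈ M, g * m * g⁻¹ ∈ M := by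
    intro g hg m hm
    have hcard : Nat.card Q ∣ q * Nat.card M := by rw [hcardQ]
    have h1 := (comm_pow_mem_of_card_dvd hQp hMQ hcard g hg m (hMQ hm)).1
    have e : g * m * g⁻¹ = (g * m * g⁻¹ * m⁻¹) * m := by group
    rw [e]; exact M.mul_mem h1 hm
  obtain ⟨g, hgQ, hgC⟩ := SetLike.not_le_iff_exists.mp hnc
  obtain ⟨w, hw⟩ : ∃ w : G, w = g⁻¹ * (h0 * g * h0⁻¹) := ⟨_, rfl⟩
  have hwQ : w ∈ Q := by
    rw [hw]; exact Q.mul_mem (Q.inv_mem hgQ) (hQn.conj_mem g hgQ h0)
  have hwM : ∀ m ∈ M, w * m = m * w := by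
    intro m hm
    have e1 : h0 * (g * m * g⁻¹) = (g * m * g⁻¹) * h0 := ((hMmem _).mp (hMn g hgQ m hm)).1
    have e2 : h0 * m = m * h0 := ((hMmem m).mp hm).1
    have e3 : h0⁻¹ * m = m * h0⁻¹ := by
      calc h0⁻¹ * m = h0⁻¹ * (m * h0) * h0⁻¹ := by group
        _ = h0⁻¹ * (h0 * m) * h0⁻¹ := by rw [e2]
        _ = m * h0⁻¹ := by group
    rw [hw]
    calc g⁻¹ * (h0 * g * h0⁻¹) * m = g⁻¹ * h0 * g * (h0⁻¹ * m) := by group
      _ = g⁻¹ * h0 * g * (m * h0⁻¹) := by rw [e3]
      _ = g⁻¹ * (h0 * (g * m * g⁻¹)) * g * h0⁻¹ := by group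
      _ = g⁻¹ * ((g * m * g⁻¹) * h0) * g * h0⁻¹ := by rw [e1]
      _ = m * (g⁻¹ * (h0 * g * h0⁻¹)) := by group
  have hwnM : w ∉ M := by
    intro hwm
    have hc : h0 * w = w * h0 := ((hMmem w).mp hwm).1
    have hco : (orderOf w).Coprime (orderOf h0) := coprime_orderOf_of_mem hQp hwQ hcop
    have hw1 := coprime_fix g h0 w hw hc hco
    apply hgC
    rw [mem_cent_single]
    rw [hw1] at hw
    calc h0 * g = g * (g⁻¹ * (h0 * g * h0⁻¹)) * h0 := by group
      _ = g * h0 := by rw [← hw]; group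
  have hmax : ∀ K : Subgroup G, M ≤ K → K ≤ Q → w ∈ K → Q ≤ K := by
    intro K hMK hKQ hwK
    have c1 := card_eq_relIndex_mul hMK
    have c2 := card_eq_relIndex_mul hKQ
    rw [c1, hcardQ] at c2
    have c3 : q = K.relIndex Q * M.relIndex K := by
      have hpos : 0 < Nat.card M := Nat.card_pos
      have h5 : q * Nat.card M = (K.relIndex Q * M.relIndex K) * Nat.card M := by
        rw [c2]; ring
      exact Nat.eq_of_mul_eq_mul_right hpos h5
    rcases (Nat.dvd_prime hq).mp ⟨_, c3⟩ with h1 | h1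
    · exact Subgroup.relIndex_eq_one.mp h1
    · exfalso
      rw [h1] at c3
      have h2 : M.relIndex K = 1 := by
        have h6 : q * 1 = q * M.relIndex K := by rw [mul_one]; exact c3
        exact (Nat.eq_of_mul_eq_mul_left hq.pos h6).symm
      exact hwnM (Subgroup.relIndex_eq_one.mp h2 hwK)
  have hK1 : Q ≤ Subgroup.centralizer (M : Set G) ⊓ Q := by
    refine hmax _ ?_ inf_le_right ?_
    · intro m' hm'
      refine Subgroup.mem_inf.mpr ⟨?_, hMQ hm'⟩
      rw [Subgroup.mem_centralizer_iff]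
      intro z hz
      exact hMab m' hm' z hz
    · refine Subgroup.mem_inf.mpr ⟨?_, hwQ⟩
      rw [Subgroup.mem_centralizer_iff]
      intro z hz
      exact (hwM z hz).symm
  have hK2 : Q ≤ Subgroup.centralizer ({w} : Set G) ⊓ Q := by
    refine hmax _ ?_ inf_le_right ?_
    · intro m hm
      exact Subgroup.mem_inf.mpr ⟨mem_cent_single.mpr (hwM m hm), hMQ hm⟩
    · exact Subgroup.mem_inf.mpr ⟨mem_cent_single.mpr rfl, hwQ⟩
  have hK3 : Q ≤ Subgroup.centralizer (Q : Set G) ⊓ Q := by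
    refine hmax _ ?_ inf_le_right ?_
    · intro m hm
      refine Subgroup.mem_inf.mpr ⟨?_, hMQ hm⟩
      rw [Subgroup.mem_centralizer_iff]
      intro z hz
      have h7 := Subgroup.mem_centralizer_iff.mp (Subgroup.mem_inf.mp (hK1 hz)).1 m hm
      exact h7.symm
    · refine Subgroup.mem_inf.mpr ⟨?_, hwQ⟩
      rw [Subgroup.mem_centralizer_iff]
      intro z hz
      have h7 := mem_cent_single.mp (Subgroup.mem_inf.mp (hK2 hz)).1
      exact h7.symm
  intro a ha b hb
  exact Subgroup.mem_centralizer_iff.mp (Subgroup.mem_inf.mp (hK3 hb)).1 a ha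

theorem caseB [Finite G] (h : SF G) (q : ℕ) [Fact q.Prime] (Q H : Subgroup G) [hQn : Q.Normal]
    (hQp : IsPGroup q Q) (hcomp : ∀ g : G, ∃ a ∈ Q, ∃ k ∈ H, g = a * k)
    (hHab : ∀ k ∈ H, ∀ k' ∈ H, k * k' = k' * k) (hHcop : ∀ k ∈ H, (orderOf k).Coprime q)
    (h0 : G) (h0H : h0 ∈ H) (hnc : ¬ Q ≤ Subgroup.centralizer ({h0} : Set G)) :
    Nat.card (commutator G) ∣ q := by
  have hq := (Fact.out : q.Prime)
  have hab := abelian_of_coprime_noncentralizing h q Q hQp h0 (hHcop h0 h0H) hnc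
  have hd : ∀ x : G, ¬ Q ≤ Subgroup.centralizer ({x} : Set G) →
      (Subgroup.centralizer ({x} : Set G)).relIndex Q = q := by
    intro x hx
    rcases h.relIndex_pgroup q Q hQp x with h1 | h1
    · exact absurd (Subgroup.relIndex_eq_one.mp h1) hx
    · exact h1
  have hcardL : ∀ x : G, ¬ Q ≤ Subgroup.centralizer ({x} : Set G) →
      Nat.card (commHom Q hab x).range = q := by
    intro x hx
    rw [commHom_card_range, hd x hx]
  have hL : ∀ k ∈ H, (commHom Q hab k).range ≤ (commHom Q hab h0).range := by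
    intro k hk
    by_cases hkc : Q ≤ Subgroup.centralizer ({k} : Set G)
    · rintro _ ⟨a, rfl⟩
      rw [commHom_apply]
      have h2 := mem_cent_single.mp (hkc a.2)
      have e : (a : G) * k * (a : G)⁻¹ * k⁻¹ = 1 := by rw [← h2]; group
      rw [e]; exact Subgroup.one_mem _
    · rcases dich Q hab q hq hd h0 k hnc hkc with h1 | h1
      · obtain ⟨a, haQ, haC⟩ := SetLike.not_le_iff_exists.mp hkc
        obtain ⟨l, hl⟩ : ∃ l : G, l = a * k * a⁻¹ * k⁻¹ := ⟨_, rfl⟩
        have hlL : l ∈ (commHom Q hab k).range := ⟨⟨a, haQ⟩, by rw [commHom_apply, hl]⟩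
        have hlQ : l ∈ Q := commHom_range_le Q hab k hlL
        have hl1 : l ≠ 1 := by
          intro hh
          apply haC
          rw [mem_cent_single]
          rw [hh] at hl
          calc k * a = (a * k * a⁻¹ * k⁻¹)⁻¹ * (a * k) := by group
            _ = a * k := by rw [← hl]; group
        have hlk : ¬ k * l = l * k := by
          intro hc
          have hco : (orderOf l).Coprime (orderOf k) :=
            coprime_orderOf_of_mem hQp hlQ (hHcop k hk)
          exact hl1 (coprime_fix a⁻¹ k l (by rw [hl]; group) hc hco)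
        have hlh : ¬ h0 * l = l * h0 := by
          intro hc
          apply hlk
          have h3 : l ∈ Subgroup.centralizer ({h0} : Set G) ⊓ Q :=
            Subgroup.mem_inf.mpr ⟨mem_cent_single.mpr hc, hlQ⟩
          rw [h1] at h3
          exact mem_cent_single.mp (Subgroup.mem_inf.mp h3).1
        obtain ⟨l', hl'⟩ : ∃ l' : G, l' = l * h0 * l⁻¹ * h0⁻¹ := ⟨_, rfl⟩
        have hl'R : l' ∈ (commHom Q hab h0).range := ⟨⟨l, hlQ⟩, by rw [commHom_apply, hl']⟩
        have hl'1 : l' ≠ 1 := by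
          intro hh
          apply hlh
          rw [hh] at hl'
          calc h0 * l = (l * h0 * l⁻¹ * h0⁻¹)⁻¹ * (l * h0) := by group
            _ = l * h0 := by rw [← hl']; group
        have hkh : h0 * k = k * h0 := hHab h0 h0H k hk
        have e1 : h0⁻¹ * k = k * h0⁻¹ := by
          calc h0⁻¹ * k = h0⁻¹ * (k * h0) * h0⁻¹ := by group
            _ = h0⁻¹ * (h0 * k) * h0⁻¹ := by rw [hkh]
            _ = k * h0⁻¹ := by group
        have e3 : h0⁻¹ * k⁻¹ = k⁻¹ * h0⁻¹ := by
          rw [← mul_inv_rev, ← mul_inv_rev, hkh]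
        have hinv : ∀ u ∈ (commHom Q hab k).range,
            h0 * u * h0⁻¹ ∈ (commHom Q hab k).range := by
          rintro _ ⟨b, rfl⟩
          refine ⟨⟨h0 * b * h0⁻¹, hQn.conj_mem b b.2 h0⟩, ?_⟩
          rw [commHom_apply, commHom_apply]
          show h0 * (b : G) * h0⁻¹ * k * (h0 * (b : G) * h0⁻¹)⁻¹ * k⁻¹ =
            h0 * ((b : G) * k * (b : G)⁻¹ * k⁻¹) * h0⁻¹
          calc h0 * (b : G) * h0⁻¹ * k * (h0 * (b : G) * h0⁻¹)⁻¹ * k⁻¹
              = h0 * (b : G) * (h0⁻¹ * k) * h0 * (b : G)⁻¹ * (h0⁻¹ * k⁻¹) := by group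
            _ = h0 * (b : G) * (k * h0⁻¹) * h0 * (b : G)⁻¹ * (k⁻¹ * h0⁻¹) := by rw [e1, e3]
            _ = h0 * ((b : G) * k * (b : G)⁻¹ * k⁻¹) * h0⁻¹ := by group
        have hl'L : l' ∈ (commHom Q hab k).range := by
          have h2 : h0 * l⁻¹ * h0⁻¹ ∈ (commHom Q hab k).range :=
            hinv _ ((commHom Q hab k).range.inv_mem hlL)
          have e : l' = l * (h0 * l⁻¹ * h0⁻¹) := by rw [hl']; group
          rw [e]; exact Subgroup.mul_mem _ hlL h2
        exact ((eq_zpowers_of_prime_card hq (hcardL k hkc) hl'L hl'1).trans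
          (eq_zpowers_of_prime_card hq (hcardL h0 hnc) hl'R hl'1).symm).le
      · exact h1.ge
  have key : ∀ a1 ∈ Q, ∀ a2 ∈ Q, ∀ k1 ∈ H, ∀ k2 ∈ H,
      (a1 * k1) * (a2 * k2) * (a1 * k1)⁻¹ * (a2 * k2)⁻¹ =
        (a1 * k2 * a1⁻¹ * k2⁻¹) * (a2 * k1 * a2⁻¹ * k1⁻¹)⁻¹ := by
    intro a1 ha1 a2 ha2 k1 hk1 k2 hk2
    have hk : k1 * k2 = k2 * k1 := hHab k1 hk1 k2 hk2
    have hc : k1 * a2 * k1⁻¹ ∈ Q := hQn.conj_mem a2 ha2 k1
    have hd' : k2 * a1⁻¹ * k2⁻¹ ∈ Q := hQn.conj_mem _ (Q.inv_mem ha1) k2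
    have hcd := hab _ hc _ hd'
    calc (a1 * k1) * (a2 * k2) * (a1 * k1)⁻¹ * (a2 * k2)⁻¹
        = a1 * (k1 * a2 * k1⁻¹) * (k1 * k2) * k1⁻¹ * a1⁻¹ * k2⁻¹ * a2⁻¹ := by group
      _ = a1 * (k1 * a2 * k1⁻¹) * (k2 * k1) * k1⁻¹ * a1⁻¹ * k2⁻¹ * a2⁻¹ := by rw [hk]
      _ = a1 * ((k1 * a2 * k1⁻¹) * (k2 * a1⁻¹ * k2⁻¹)) * a2⁻¹ := by group
      _ = a1 * ((k2 * a1⁻¹ * k2⁻¹) * (k1 * a2 * k1⁻¹)) * a2⁻¹ := by rw [hcd]
      _ = (a1 * k2 * a1⁻¹ * k2⁻¹) * (a2 * k1 * a2⁻¹ * k1⁻¹)⁻¹ := by group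
  have hle : commutator G ≤ (commHom Q hab h0).range := by
    rw [commutator_eq_closure, Subgroup.closure_le]
    rintro _ ⟨g1, g2, rfl⟩
    obtain ⟨a1, ha1, k1, hk1, rfl⟩ := hcomp g1
    obtain ⟨a2, ha2, k2, hk2, rfl⟩ := hcomp g2
    show (a1 * k1) * (a2 * k2) * (a1 * k1)⁻¹ * (a2 * k2)⁻¹ ∈ (commHom Q hab h0).range
    rw [key a1 ha1 a2 ha2 k1 hk1 k2 hk2]
    exact Subgroup.mul_mem _ (hL k2 hk2 ⟨⟨a1, ha1⟩, rfl⟩)
      (Subgroup.inv_mem _ (hL k1 hk1 ⟨⟨a2, ha2⟩, rfl⟩))
  have h4 := Subgroup.card_dvd_of_le hle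
  rwa [hcardL h0 hnc] at h4

theorem caseA [Finite G] (h : SF G) (q : ℕ) [Fact q.Prime] (Q H : Subgroup G) [hQn : Q.Normal]
    (hQp : IsPGroup q Q) (hcomp : ∀ g : G, ∃ a ∈ Q, ∃ k ∈ H, g = a * k)
    (hHab : ∀ k ∈ H, ∀ k' ∈ H, k * k' = k' * k)
    (hcen : ∀ k ∈ H, ∀ a ∈ Q, k * a = a * k) :
    Nat.card (commutator G) ∣ q := by
  have hQ' : Nat.card (commutator Q) ∣ q := knoche q hQp (h.normal Q)
  have key : ∀ a1 ∈ Q, ∀ a2 ∈ Q, ∀ k1 ∈ H, ∀ k2 ∈ H,
      (a1 * k1) * (a2 * k2) * (a1 * k1)⁻¹ * (a2 * k2)⁻¹ = a1 * a2 * a1⁻¹ * a2⁻¹ := by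
    intro a1 ha1 a2 ha2 k1 hk1 k2 hk2
    have h1 : k1 * a2 = a2 * k1 := hcen k1 hk1 a2 ha2
    have hk : k1 * k2 = k2 * k1 := hHab k1 hk1 k2 hk2
    have h2 : k2 * a1⁻¹ = a1⁻¹ * k2 := hcen k2 hk2 _ (Q.inv_mem ha1)
    calc (a1 * k1) * (a2 * k2) * (a1 * k1)⁻¹ * (a2 * k2)⁻¹
        = a1 * (k1 * a2) * k2 * k1⁻¹ * a1⁻¹ * k2⁻¹ * a2⁻¹ := by group
      _ = a1 * (a2 * k1) * k2 * k1⁻¹ * a1⁻¹ * k2⁻¹ * a2⁻¹ := by rw [h1]
      _ = a1 * a2 * (k1 * k2) * k1⁻¹ * a1⁻¹ * k2⁻¹ * a2⁻¹ := by group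
      _ = a1 * a2 * (k2 * k1) * k1⁻¹ * a1⁻¹ * k2⁻¹ * a2⁻¹ := by rw [hk]
      _ = a1 * a2 * (k2 * a1⁻¹) * k2⁻¹ * a2⁻¹ := by group
      _ = a1 * a2 * (a1⁻¹ * k2) * k2⁻¹ * a2⁻¹ := by rw [h2]
      _ = a1 * a2 * a1⁻¹ * a2⁻¹ := by group
  have hle : commutator G ≤ (commutator Q).map Q.subtype := by
    rw [commutator_eq_closure, Subgroup.closure_le]
    rintro _ ⟨g1, g2, rfl⟩
    obtain ⟨a1, ha1, k1, hk1, rfl⟩ := hcomp g1
    obtain ⟨a2, ha2, k2, hk2, rfl⟩ := hcomp g2
    show (a1 * k1) * (a2 * k2) * (a1 * k1)⁻¹ * (a2 * k2)⁻¹ ∈ (commutator Q).map Q.subtype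
    rw [key a1 ha1 a2 ha2 k1 hk1 k2 hk2]
    refine ⟨(⟨a1, ha1⟩ : Q) * ⟨a2, ha2⟩ * (⟨a1, ha1⟩ : Q)⁻¹ * (⟨a2, ha2⟩ : Q)⁻¹, ?_, rfl⟩
    rw [SetLike.mem_coe, commutator_eq_closure]
    exact Subgroup.subset_closure ⟨_, _, rfl⟩
  have hcard : Nat.card ((commutator Q).map Q.subtype) = Nat.card (commutator Q) :=
    Subgroup.card_map_of_injective Q.subtype_injective
  have h4 := Subgroup.card_dvd_of_le hle
  rw [hcard] at h4
  exact h4.trans hQ'

/-- The reduced case: if the derived subgroup is a `q`-group then it has order dividing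
`q`. -/
theorem SF.card_commutator_dvd_of_pgroup [Finite G] (h : SF G) (q : ℕ) [Fact q.Prime]
    (hq : IsPGroup q (commutator G)) : Nat.card (commutator G) ∣ q := by
  have hqp := (Fact.out : q.Prime)
  obtain ⟨Q, hQ⟩ := hq.exists_le_sylow
  haveI hQn : (Q : Subgroup G).Normal := normal_of_commutator_le _ hQ
  have hcop : (Nat.card (Q : Subgroup G)).Coprime (Q : Subgroup G).index :=
    Q.card_coprime_index
  obtain ⟨H, hH⟩ := Subgroup.exists_right_complement'_of_coprime hcop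
  have hcomp : ∀ g : G, ∃ a ∈ (Q : Subgroup G), ∃ k ∈ H, g = a * k := by
    intro g
    obtain ⟨⟨a, k⟩, hx⟩ := hH.2 g
    exact ⟨a.1, a.2, k.1, k.2, hx.symm⟩
  have hdisj : ∀ x : G, x ∈ (Q : Subgroup G) → x ∈ H → x = 1 := by
    intro x hxQ hxH
    exact (Subgroup.disjoint_def.mp hH.disjoint) hxQ hxH
  have hHab : ∀ k ∈ H, ∀ k' ∈ H, k * k' = k' * k := by
    intro k hk k' hk'
    have h1 : k * k' * k⁻¹ * k'⁻¹ ∈ (Q : Subgroup G) := hQ (by
      rw [commutator_eq_closure]; exact Subgroup.subset_closure ⟨k, k', rfl⟩)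
    have h2 : k * k' * k⁻¹ * k'⁻¹ ∈ H :=
      H.mul_mem (H.mul_mem (H.mul_mem hk hk') (H.inv_mem hk)) (H.inv_mem hk')
    have h3 := hdisj _ h1 h2
    calc k * k' = (k * k' * k⁻¹ * k'⁻¹) * (k' * k) := by group
      _ = k' * k := by rw [h3, one_mul]
  have hHcop : ∀ k ∈ H, (orderOf k).Coprime q := by
    intro k hk
    have h1 : orderOf k ∣ Nat.card H := by
      have h5 := orderOf_dvd_natCard (⟨k, hk⟩ : H)
      rwa [Subgroup.orderOf_mk] at h5
    have h2 : (Q : Subgroup G).index = Nat.card H := hH.symm.index_eq_card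
    have h3 : ¬ q ∣ (Q : Subgroup G).index := Q.not_dvd_index
    rw [← h2] at h1
    exact Nat.Coprime.coprime_dvd_left h1 ((Nat.Prime.coprime_iff_not_dvd hqp).mpr h3).symm
  by_cases hc : ∀ k ∈ H, (Q : Subgroup G) ≤ Subgroup.centralizer ({k} : Set G)
  · exact caseA h q Q H Q.isPGroup' hcomp hHab
      (fun k hk a ha => mem_cent_single.mp (hc k hk ha))
  · push Not at hc
    obtain ⟨h0, h0H, hnc⟩ := hc
    exact caseB h q Q H Q.isPGroup' hcomp hHab hHcop h0 h0H hnc

end reduced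

/-- With squarefree class sizes the derived subgroup has squarefree order. -/
theorem SF.card_commutator_squarefree : ∀ (n : ℕ) (G : Type*) [Group G] [Finite G],
    Nat.card G = n → SF G → Squarefree (Nat.card (commutator G)) := by
  intro n
  induction n using Nat.strong_induction_on with
  | _ n ih =>
    intro G _ _ hn h
    rw [Nat.squarefree_iff_prime_squarefree]
    intro q hq hqq
    haveI : Fact q.Prime := ⟨hq⟩
    haveI : Group.IsSolvable G := SF.isSolvable _ G rfl h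
    haveI : Group.IsNilpotent (commutator G) := SF.commutator_nilpotent _ G rfl h
    have hminq : ∀ N : Subgroup G, N.Normal → N ≠ ⊥ →
        (∀ K : Subgroup G, K.Normal → K ≤ N → K = ⊥ ∨ K = N) → Nat.card N = q := by
      intro N hNn hN1 hmin
      haveI := hNn
      have hprime := min_normal_prime_card h N hN1 hmin
      have hcQ : Nat.card (G ⧸ N) < n := hn ▸ card_quotient_lt N hN1
      have hsq : Squarefree (Nat.card (commutator (G ⧸ N))) :=
        ih _ hcQ (G ⧸ N) rfl (h.quotient N)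
      have hmap : (commutator G).map (QuotientGroup.mk' N) = commutator (G ⧸ N) := by
        rw [commutator_def, commutator_def, Subgroup.map_commutator,
          Subgroup.map_top_of_surjective _ (QuotientGroup.mk'_surjective N)]
      have hrel : N.relIndex (commutator G) = Nat.card (commutator (G ⧸ N)) := by
        rw [← hmap, ← Subgroup.relIndex_ker, QuotientGroup.ker_mk']
      have hc := card_eq_relIndex_mul (inf_le_right : N ⊓ commutator G ≤ commutator G)
      rw [Subgroup.inf_relIndex_right, hrel] at hc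
      have hdvd : Nat.card (N ⊓ commutator G : Subgroup G) ∣ Nat.card N :=
        Subgroup.card_dvd_of_le inf_le_left
      rcases (Nat.dvd_prime hprime).mp hdvd with h1 | h1
      · exfalso
        rw [h1, mul_one] at hc
        rw [hc] at hqq
        exact hq.one_lt.ne' (Nat.isUnit_iff.mp (hsq q hqq))
      · rw [h1] at hc
        have hqr : q ∣ Nat.card N := by
          by_contra hnd
          have hcop : (q * q).Coprime (Nat.card N) :=
            Nat.Coprime.mul_left ((Nat.Prime.coprime_iff_not_dvd hq).mpr hnd)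
              ((Nat.Prime.coprime_iff_not_dvd hq).mpr hnd)
          rw [hc] at hqq
          have h2 := hcop.dvd_of_dvd_mul_right hqq
          exact hq.one_lt.ne' (Nat.isUnit_iff.mp (hsq q h2))
        exact ((Nat.prime_dvd_prime_iff_eq hq hprime).mp hqr).symm
    have hpg : IsPGroup q (commutator G) := by
      have hne : Nat.card (commutator G) ≠ 0 := Nat.card_pos.ne'
      have huniq : ∀ {d : ℕ}, d.Prime → d ∣ Nat.card (commutator G) → d = q := by
        intro r hr hrd
        haveI : Fact r.Prime := ⟨hr⟩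
        obtain ⟨P⟩ : Nonempty (Sylow r (commutator G)) := inferInstance
        have htfae : Group.IsNilpotent (commutator G) ↔ ∀ (p : ℕ), Fact (Nat.Prime p) →
            ∀ (P : Sylow p (commutator G)), (P : Subgroup (commutator G)).Normal :=
          Group.isNilpotent_of_finite_tfae.out 0 3
        have hPn : (P : Subgroup (commutator G)).Normal := htfae.mp inferInstance r ⟨hr⟩ P
        haveI : (P : Subgroup (commutator G)).Characteristic :=
          Sylow.characteristic_of_normal P hPn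
        obtain ⟨K, hK⟩ : ∃ K : Subgroup G,
            K = (P : Subgroup (commutator G)).map (commutator G).subtype := ⟨_, rfl⟩
        have hKn : K.Normal := by rw [hK]; infer_instance
        have hKcard : Nat.card K = Nat.card (P : Subgroup (commutator G)) := by
          rw [hK]; exact Subgroup.card_map_of_injective (Subgroup.subtype_injective _)
        have hPcard : r ∣ Nat.card (P : Subgroup (commutator G)) := P.dvd_card_of_dvd_card hrd
        have hK1 : K ≠ ⊥ := by
          intro hh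
          rw [← hKcard, hh, Subgroup.card_bot] at hPcard
          exact hr.one_lt.ne' (Nat.dvd_one.mp hPcard)
        obtain ⟨N, hNn, hN1, hNK, hmin⟩ :=
          Cfsg.Agent.Lib.Helper5.exists_minimal_normal K hKn hK1
        have hNq := hminq N hNn hN1 hmin
        have hdvd : q ∣ Nat.card K := hNq ▸ Subgroup.card_dvd_of_le hNK
        rw [hKcard] at hdvd
        obtain ⟨m, hm⟩ := IsPGroup.iff_card.mp P.isPGroup'
        rw [hm] at hdvd
        exact ((Nat.prime_dvd_prime_iff_eq hq hr).mp (hq.dvd_of_dvd_pow hdvd)).symm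
      exact IsPGroup.of_card (Nat.eq_prime_pow_of_unique_prime_dvd hne huniq)
    have h5 := h.card_commutator_dvd_of_pgroup q hpg
    have h6 : q * q ≤ q := Nat.le_of_dvd hq.pos (hqq.trans h5)
    nlinarith [hq.two_le]

end Cfsg.Agent.Lib.Lead.SqFree
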