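import Mathlib
import Cfsg.Prelude.Def_Solvable
import Cfsg.Prelude.Def_SolvableStructure
import Cfsg.Agent.Lib.Lead.SqFreeC

set_option autoImplicit false

namespace Cfsg.Agent.Lib.Lead.SqFree

open Subgroup

section assembly

variable {G : Type*} [Group G]

theorem ucs2_eq_top (K : Type*) [Group K]
    (hK : ∀ a b c : K, (a * b * a⁻¹ * b⁻¹) * c = c * (a * b * a⁻¹ * b⁻¹)) :
    Subgroup.upperCentralSeries K 2 = ⊤ := by
  rw [eq_top_iff]
  intro x _
  rw [show (2 : ℕ) = 1 + 1 from rfl, Subgroup.mem_upperCentralSeries_succ_iff]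
  intro y
  rw [Subgroup.upperCentralSeries_one, Subgroup.mem_center_iff]
  intro z
  exact (hK x y z).symm

theorem commutator_le_of_forall {K : Type*} [Group K] (H : Subgroup K)
    (hH : ∀ a b : K, a * b * a⁻¹ * b⁻¹ ∈ H) : commutator K ≤ H := by
  rw [commutator_eq_closure, Subgroup.closure_le]
  rintro _ ⟨a, b, rfl⟩
  exact hH a b

theorem cyclic_quotient_of_squarefree_index [Finite G] (K : Subgroup G) [hKn : K.Normal]
    (hK : commutator G ≤ K) (hsq : Squarefree K.index) : IsCyclic (G ⧸ K) := by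
  have hab : ∀ a b : G ⧸ K, a * b * a⁻¹ * b⁻¹ = 1 := by
    intro a b
    obtain ⟨x, rfl⟩ := QuotientGroup.mk_surjective a
    obtain ⟨y, rfl⟩ := QuotientGroup.mk_surjective b
    have h1 : x * y * x⁻¹ * y⁻¹ ∈ K := hK (by
      rw [commutator_eq_closure]; exact Subgroup.subset_closure ⟨x, y, rfl⟩)
    have h2 : ((x * y * x⁻¹ * y⁻¹ : G) : G ⧸ K) = 1 := (QuotientGroup.eq_one_iff _).mpr h1
    simpa using h2
  haveI : Group.IsNilpotent (G ⧸ K) :=
    ⟨⟨2, ucs2_eq_top _ (fun a b c => by rw [hab a b, one_mul, mul_one])⟩⟩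
  haveI : IsZGroup (G ⧸ K) :=
    IsZGroup.of_squarefree (by rw [← Subgroup.index_eq_card]; exact hsq)
  infer_instance

theorem nilp_normal_centralizes (c0 : G) (hc0n : (Subgroup.zpowers c0).Normal)
    (hsq : Squarefree (orderOf c0)) (N : Subgroup G) [hNn : N.Normal]
    [hNnil : Group.IsNilpotent N] (z : G) (hz : z ∈ N) : c0 * z = z * c0 := by
  obtain ⟨k, hk⟩ : ∃ k : ℤ, z * c0 * z⁻¹ = c0 ^ k := by
    have h1 := hc0n.conj_mem c0 (Subgroup.mem_zpowers c0) z
    obtain ⟨k, hk⟩ := Subgroup.mem_zpowers_iff.mp h1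
    exact ⟨k, hk.symm⟩
  obtain ⟨n, hn⟩ := Subgroup.nilpotent_iff_lowerCentralSeries.mp hNnil
  have key : ∀ j : ℕ, ∃ u : N, u ∈ (⊤ : Subgroup N).lowerCentralSeries j ∧
      (u : G) = c0 ^ ((1 - k) ^ (j + 1)) := by
    intro j
    induction j with
    | zero =>
      refine ⟨⟨c0 * z * c0⁻¹ * z⁻¹, ?_⟩, ?_, ?_⟩
      · exact N.mul_mem (hNn.conj_mem z hz c0) (N.inv_mem hz)
      · rw [Subgroup.lowerCentralSeries_zero]; trivial
      · show c0 * z * c0⁻¹ * z⁻¹ = _
        have e : c0 * z * c0⁻¹ * z⁻¹ = c0 * (z * c0 * z⁻¹)⁻¹ := by group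
        rw [e, hk, zero_add, pow_one, zpow_sub, zpow_one]
    | succ j ih =>
      obtain ⟨u, hu, hue⟩ := ih
      refine ⟨u * ⟨z, hz⟩ * u⁻¹ * (⟨z, hz⟩ : N)⁻¹, ?_, ?_⟩
      · rw [Subgroup.lowerCentralSeries_succ]
        exact Subgroup.commutator_mem_commutator hu (Subgroup.mem_top _)
      · have e1 : ((u * ⟨z, hz⟩ * u⁻¹ * (⟨z, hz⟩ : N)⁻¹ : N) : G) =
            (u : G) * z * (u : G)⁻¹ * z⁻¹ := rfl
        rw [e1, hue]
        obtain ⟨a, ha⟩ : ∃ a : ℤ, a = (1 - k) ^ (j + 1) := ⟨_, rfl⟩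
        rw [← ha]
        have e2 : c0 ^ a * z * (c0 ^ a)⁻¹ * z⁻¹ = c0 ^ a * ((z * c0 * z⁻¹) ^ a)⁻¹ := by
          rw [conj_zpow]; group
        rw [e2, hk, ← zpow_mul, ← zpow_neg, ← zpow_add]
        congr 1
        rw [pow_succ (1 - k) (j + 1), ← ha]; ring
  obtain ⟨u, hu, hue⟩ := key n
  rw [hn, Subgroup.mem_bot] at hu
  have h1 : c0 ^ ((1 - k) ^ (n + 1)) = 1 := by rw [← hue, hu]; rfl
  have h2 : (orderOf c0 : ℤ) ∣ (1 - k) ^ (n + 1) := orderOf_dvd_iff_zpow_eq_one.mpr h1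
  have h3 : Squarefree (orderOf c0 : ℤ) := Int.squarefree_natCast.mpr hsq
  have h4 : (orderOf c0 : ℤ) ∣ 1 - k := (h3.dvd_pow_iff_dvd (Nat.succ_ne_zero n)).mp h2
  have h5 : c0 ^ (1 - k) = 1 := orderOf_dvd_iff_zpow_eq_one.mp h4
  rw [zpow_sub, zpow_one] at h5
  have h6 : c0 * (z * c0 * z⁻¹)⁻¹ = 1 := by rw [hk]; exact h5
  calc c0 * z = (c0 * (z * c0 * z⁻¹)⁻¹) * (z * c0) := by group
    _ = z * c0 := by rw [h6, one_mul]

theorem supersolvable_of_commutator_le_zpowers [Finite G] (c0 : G)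
    (hc0 : commutator G ≤ Subgroup.zpowers c0) : Cfsg.IsSupersolvable G := by
  obtain ⟨m, ⟨e⟩⟩ : ∃ m : ℕ, Nonempty (Fin m ≃ G) :=
    ⟨Nat.card G, ⟨(Finite.equivFin G).symm⟩⟩
  obtain ⟨S, hS⟩ : ∃ S : ℕ → Set G, ∀ (i : ℕ) (g : G),
      g ∈ S i ↔ ((∃ j : Fin m, j.val + 1 < i ∧ e j = g) ∨ (0 < i ∧ g = c0)) :=
    ⟨fun i => {g | (∃ j : Fin m, j.val + 1 < i ∧ e j = g) ∨ (0 < i ∧ g = c0)},
      fun i g => Iff.rfl⟩
  have hS0 : S 0 = ∅ := by
    ext g
    rw [hS]
    simp only [Set.mem_empty_iff_false, iff_false]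
    rintro (⟨j, hj, -⟩ | ⟨h0, -⟩) <;> omega
  refine ⟨m + 1, fun i => Subgroup.closure (S i.val), ?_, ?_, ?_, ?_⟩
  · show Subgroup.closure (S ((0 : Fin (m + 1 + 1)).val)) = ⊥
    rw [Fin.val_zero, hS0, Subgroup.closure_empty]
  · show Subgroup.closure (S ((Fin.last (m + 1)).val)) = ⊤
    rw [Fin.val_last, eq_top_iff]
    intro g _
    apply Subgroup.subset_closure
    rw [hS]
    left
    exact ⟨e.symm g, by have := (e.symm g).isLt; omega, e.apply_symm_apply g⟩
  · intro i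
    show (Subgroup.closure (S i.val)).Normal
    by_cases hi : i.val = 0
    · rw [hi, hS0, Subgroup.closure_empty]; infer_instance
    · apply normal_of_commutator_le
      refine hc0.trans ?_
      rw [Subgroup.zpowers_le]
      apply Subgroup.subset_closure
      rw [hS]
      right
      exact ⟨Nat.pos_of_ne_zero hi, rfl⟩
  · intro i
    show ∃ g : G, Subgroup.closure (S i.succ.val) =
      Subgroup.closure (S i.castSucc.val) ⊔ Subgroup.zpowers g
    rw [Fin.val_succ, Fin.val_castSucc]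
    by_cases hi : i.val = 0
    · refine ⟨c0, ?_⟩
      rw [Subgroup.zpowers_eq_closure, ← Subgroup.closure_union]
      congr 1
      ext g
      rw [Set.mem_union, hS, hS, Set.mem_singleton_iff]
      constructor
      · rintro (⟨j, hj, -⟩ | ⟨-, h2⟩)
        · omega
        · right; exact h2
      · rintro ((⟨j, hj, -⟩ | ⟨h1, -⟩) | h2)
        · omega
        · omega
        · right; exact ⟨by omega, h2⟩
    · have hk : i.val - 1 < m := by have := i.isLt; omega
      refine ⟨e ⟨i.val - 1, hk⟩, ?_⟩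
      rw [Subgroup.zpowers_eq_closure, ← Subgroup.closure_union]
      congr 1
      ext g
      rw [Set.mem_union, hS, hS, Set.mem_singleton_iff]
      constructor
      · rintro (⟨j, hj, hjg⟩ | ⟨h1, h2⟩)
        · by_cases hj2 : j.val + 1 < i.val
          · left; left; exact ⟨j, hj2, hjg⟩
          · right
            have hje : j = ⟨i.val - 1, hk⟩ := Fin.ext (by simp only []; omega)
            rw [← hjg, hje]
        · left; right; exact ⟨by omega, h2⟩
      · rintro ((⟨j, hj, hjg⟩ | ⟨h1, h2⟩) | h2)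
        · left; exact ⟨j, by omega, hjg⟩
        · right; exact ⟨by omega, h2⟩
        · left; exact ⟨⟨i.val - 1, hk⟩, by simp only []; omega, h2.symm⟩

/-- The structure theorem for finite groups with squarefree class sizes. -/
theorem main_structure [Finite G] (h : SF G) :
    Cfsg.IsSupersolvable G ∧ (Cfsg.fittingSubgroup G).Normal ∧
    (∀ _h : (Cfsg.fittingSubgroup G).Normal,
      IsCyclic (G ⧸ Cfsg.fittingSubgroup G) ∧ Squarefree (Cfsg.fittingSubgroup G).index) ∧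
    IsCyclic (commutator G) ∧ Squarefree (Nat.card (commutator G)) ∧
    Subgroup.upperCentralSeries ↥(Cfsg.fittingSubgroup G) 2 = ⊤ ∧
    commutator ↥(commutator G) = ⊥ := by
  haveI hnil : Group.IsNilpotent (commutator G) := SF.commutator_nilpotent _ G rfl h
  have hsq : Squarefree (Nat.card (commutator G)) := SF.card_commutator_squarefree _ G rfl h
  haveI : IsZGroup (commutator G) := IsZGroup.of_squarefree hsq
  have hcyc : IsCyclic (commutator G) := inferInstance
  obtain ⟨c, hc⟩ := hcyc.exists_generator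
  obtain ⟨c0, hc0⟩ : ∃ c0 : G, c0 = (c : G) := ⟨_, rfl⟩
  have hG' : commutator G = Subgroup.zpowers c0 := by
    apply le_antisymm
    · intro x hx
      obtain ⟨i, hi⟩ := Subgroup.mem_zpowers_iff.mp (hc ⟨x, hx⟩)
      refine Subgroup.mem_zpowers_iff.mpr ⟨i, ?_⟩
      have h1 := congrArg Subtype.val hi
      rw [hc0]
      simpa using h1
    · rw [Subgroup.zpowers_le, hc0]; exact c.2
  have hord : orderOf c0 = Nat.card (commutator G) := by rw [hG', Nat.card_zpowers]
  have hsq0 : Squarefree (orderOf c0) := hord ▸ hsq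
  have hzn : (Subgroup.zpowers c0).Normal := hG' ▸ (inferInstance : (commutator G).Normal)
  obtain ⟨C, hC⟩ : ∃ C : Subgroup G, C = Subgroup.centralizer ({c0} : Set G) := ⟨_, rfl⟩
  have hCmem : ∀ g : G, g ∈ C ↔ c0 * g = g * c0 := by
    intro g; rw [hC, mem_cent_single]
  have hCG' : ∀ g ∈ C, ∀ u ∈ commutator G, u * g = g * u := by
    intro g hg u hu
    rw [hG'] at hu
    obtain ⟨i, rfl⟩ := Subgroup.mem_zpowers_iff.mp hu
    exact ((show Commute c0 g from (hCmem g).mp hg).zpow_left i).eq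
  have hcomm_mem : ∀ a b : G, a * b * a⁻¹ * b⁻¹ ∈ commutator G := by
    intro a b
    rw [commutator_eq_closure]; exact Subgroup.subset_closure ⟨a, b, rfl⟩
  have hG'C : commutator G ≤ C := by
    rw [hG', Subgroup.zpowers_le, hCmem]
  have hCn : C.Normal := normal_of_commutator_le C hG'C
  have hCucs : Subgroup.upperCentralSeries C 2 = ⊤ := by
    apply ucs2_eq_top
    intro a b c'
    apply Subtype.ext
    show (a : G) * b * (a : G)⁻¹ * (b : G)⁻¹ * c' =
      c' * ((a : G) * b * (a : G)⁻¹ * (b : G)⁻¹)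
    exact hCG' c' c'.2 _ (hcomm_mem a b)
  have hCnil : Group.IsNilpotent C := ⟨⟨2, hCucs⟩⟩
  have hCF : C ≤ Cfsg.fittingSubgroup G := le_sSup ⟨hCn, hCnil⟩
  have hFC : Cfsg.fittingSubgroup G ≤ C := by
    apply sSup_le
    rintro N ⟨hNn, hNnil⟩
    intro z hz
    haveI := hNn
    haveI := hNnil
    exact (hCmem z).mpr (nilp_normal_centralizes c0 hzn hsq0 N z hz)
  have hF : Cfsg.fittingSubgroup G = C := le_antisymm hFC hCF
  have hFn : (Cfsg.fittingSubgroup G).Normal := hF ▸ hCn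
  have hFidx : Squarefree (Cfsg.fittingSubgroup G).index := by
    rw [hF, hC]; exact h c0
  have hG'F : commutator G ≤ Cfsg.fittingSubgroup G := hG'C.trans hCF
  refine ⟨supersolvable_of_commutator_le_zpowers c0 hG'.le, hFn, ?_, hcyc, hsq, ?_, ?_⟩
  · intro _h
    exact ⟨cyclic_quotient_of_squarefree_index _ hG'F hFidx, hFidx⟩
  · apply ucs2_eq_top
    intro a b c'
    apply Subtype.ext
    show (a : G) * b * (a : G)⁻¹ * (b : G)⁻¹ * c' =
      c' * ((a : G) * b * (a : G)⁻¹ * (b : G)⁻¹)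
    exact hCG' c' (hFC c'.2) _ (hcomm_mem a b)
  · rw [eq_bot_iff]
    apply commutator_le_of_forall
    intro a b
    rw [Subgroup.mem_bot]
    obtain ⟨i, hi⟩ := Subgroup.mem_zpowers_iff.mp (hc a)
    obtain ⟨j, hj⟩ := Subgroup.mem_zpowers_iff.mp (hc b)
    rw [← hi, ← hj]
    have hcm : Commute (c ^ i) (c ^ j) := Commute.zpow_zpow_self c i j
    rw [hcm.eq]; group

end assembly

end Cfsg.Agent.Lib.Lead.SqFree
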